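import Mathlib
import Cfsg.Agent.H1.Basic

/-!
Coordinates along an element of prime order, and affine groups of prime degree.
-/

set_option autoImplicit false

namespace Cfsg.Agent.H1.Coord

open MulAction

section Pow

variable {G : Type*} [Group G] {p : ℕ} [hp : Fact p.Prime]

/-- The power of `σ` with exponent in `ZMod p`. -/
def zp (σ : G) (j : ZMod p) : G := σ ^ j.val

theorem zp_zero (σ : G) : zp σ (0 : ZMod p) = 1 := by simp [zp]

theorem zp_one (σ : G) : zp σ (1 : ZMod p) = σ := by simp [zp, ZMod.val_one]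

theorem zp_add {σ : G} (hσ : σ ^ p = 1) (i j : ZMod p) : zp σ (i + j) = zp σ i * zp σ j := by
  simp only [zp]
  rw [ZMod.val_add, ← pow_add, ← pow_eq_pow_mod _ hσ]

theorem zp_natCast {σ : G} (hσ : σ ^ p = 1) (n : ℕ) : zp σ (n : ZMod p) = σ ^ n := by
  simp only [zp]
  rw [ZMod.val_natCast, ← pow_eq_pow_mod _ hσ]

theorem zp_neg {σ : G} (hσ : σ ^ p = 1) (i : ZMod p) : zp σ (-i) = (zp σ i)⁻¹ := by
  rw [eq_inv_iff_mul_eq_one, ← zp_add hσ, neg_add_cancel, zp_zero]

variable {α : Type*} [MulAction G α]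

theorem zp_smul_injective {σ : G} (hσ : σ ^ p = 1) {a : α} (ha : σ • a ≠ a) :
    Function.Injective fun j : ZMod p => zp σ j • a := by
  have hper : period σ a = p := by
    have h1 : period σ a ∣ p := pow_smul_eq_iff_period_dvd.1 (by rw [hσ, one_smul])
    rcases (Nat.dvd_prime hp.out).1 h1 with h | h
    · exact absurd (period_eq_one_iff.1 h) ha
    · exact h
  intro i j hij
  have h1 : zp σ (i - j) • a = a := by
    have h2 : zp σ i • a = zp σ j • a := hij
    rw [sub_eq_neg_add, zp_add hσ, mul_smul, h2, ← mul_smul, ← zp_add hσ, neg_add_cancel, zp_zero,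
      one_smul]
  have h3 := pow_smul_eq_iff_period_dvd.1 h1
  rw [hper] at h3
  have h4 : (i - j).val = 0 := Nat.eq_zero_of_dvd_of_lt h3 (ZMod.val_lt _)
  rwa [ZMod.val_eq_zero, sub_eq_zero] at h4

/-- Coordinates on a set of prime size `p` in which an element of order `p` is `j ↦ j + 1`. -/
theorem exists_coord [Finite α] (hα : Nat.card α = p) {σ : G} (hσ : σ ^ p = 1) {a : α}
    (ha : σ • a ≠ a) : ∃ e : ZMod p ≃ α, ∀ j, σ • e j = e (j + 1) := by
  have hbij : Function.Bijective fun j : ZMod p => zp σ j • a :=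
    (zp_smul_injective hσ ha).bijective_of_nat_card_le (by rw [hα, Nat.card_zmod])
  refine ⟨Equiv.ofBijective _ hbij, fun j => ?_⟩
  simp only [Equiv.ofBijective_apply]
  rw [add_comm, zp_add hσ, zp_one, mul_smul]

theorem eq_affine_of_step {R : Type*} [CommRing R] (c : ZMod p → R) (hc0 : c 0 = 0)
    (hc : ∀ j, c (j + 1) = c j + 1) (φ : ZMod p → R) (m : R) (h : ∀ j, φ (j + 1) = φ j + m)
    (j : ZMod p) : φ j = m * c j + φ 0 := by
  obtain ⟨n, rfl⟩ := ZMod.natCast_zmod_surjective j
  induction n with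
  | zero => simp [hc0]
  | succ n ih => rw [Nat.cast_succ, h, ih, hc]; ring

end Pow

section Affine

variable {G : Type*} [Group G] {p : ℕ} [hp : Fact p.Prime] {α : Type*} [MulAction G α]

/-- `g` acts as an affine map in the coordinates `e`. -/
def IsAffine (e : ZMod p ≃ α) (g : G) : Prop := ∃ a b : ZMod p, ∀ j, g • e j = e (a * j + b)

theorem pow_smul_coord {e : ZMod p ≃ α} {σ : G} (hσ : ∀ j, σ • e j = e (j + 1)) (n : ℕ)
    (j : ZMod p) : σ ^ n • e j = e (j + n) := by
  induction n with
  | zero => simp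
  | succ n ih => rw [pow_succ', mul_smul, ih, hσ, Nat.cast_succ, add_assoc]

theorem inv_smul_coord {e : ZMod p ≃ α} {σ : G} (hσ : ∀ j, σ • e j = e (j + 1))
    (j : ZMod p) : σ⁻¹ • e j = e (j - 1) := by
  rw [inv_smul_eq_iff, hσ, sub_add_cancel]

theorem isAffine_of_step {e : ZMod p ≃ α} {g : G} (m : ZMod p)
    (h : ∀ j, e.symm (g • e (j + 1)) = e.symm (g • e j) + m) : IsAffine e g := by
  refine ⟨m, e.symm (g • e 0), fun j => ?_⟩
  rw [← eq_affine_of_step (fun j => j) rfl (fun _ => rfl) (fun j => e.symm (g • e j)) m h j]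
  simp

theorem isAffine_of_conj {e : ZMod p ≃ α} {σ : G} (hσ : ∀ j, σ • e j = e (j + 1)) {g : G}
    {m : ℕ} (hg : g * σ * g⁻¹ = σ ^ m) : IsAffine e g := by
  apply isAffine_of_step (m : ZMod p)
  intro j
  have h1 : g * σ = σ ^ m * g := by rw [← hg]; group
  rw [← hσ, ← mul_smul, h1, mul_smul, Equiv.symm_apply_eq, ← pow_smul_coord hσ]
  simp

/-- The slope of an element acting as an affine map. -/
def slope (e : ZMod p ≃ α) (g : G) : ZMod p := e.symm (g • e 1) - e.symm (g • e 0)

theorem slope_eq {e : ZMod p ≃ α} {g : G} {a b : ZMod p} (h : ∀ j, g • e j = e (a * j + b)) :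
    slope e g = a := by
  simp [slope, h]

theorem IsAffine.spec {e : ZMod p ≃ α} {g : G} (h : IsAffine e g) :
    ∃ b : ZMod p, ∀ j, g • e j = e (slope e g * j + b) := by
  obtain ⟨a, b, hab⟩ := h
  exact ⟨b, by rw [slope_eq hab]; exact hab⟩

/-- The slope as a homomorphism, for a group acting by affine maps. -/
def slopeHom (e : ZMod p ≃ α) (h : ∀ g : G, IsAffine e g) : G →* ZMod p where
  toFun := slope e
  map_one' := slope_eq (b := 0) (by simp)
  map_mul' g k := by
    obtain ⟨b, hb⟩ := (h g).spec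
    obtain ⟨c, hc⟩ := (h k).spec
    apply slope_eq (b := slope e g * c + b)
    intro j
    rw [mul_smul, hc, hb]
    congr 1
    ring

theorem commute_of_slope_eq_one [FaithfulSMul G α] {e : ZMod p ≃ α} {g k : G}
    (hg : IsAffine e g) (hk : IsAffine e k) (hg1 : slope e g = 1) (hk1 : slope e k = 1) :
    g * k = k * g := by
  obtain ⟨b, hb⟩ := hg.spec
  obtain ⟨c, hc⟩ := hk.spec
  apply FaithfulSMul.eq_of_smul_eq_smul (α := α)
  intro x
  obtain ⟨j, rfl⟩ := e.surjective x
  rw [mul_smul, mul_smul, hb, hc, hb, hc, hg1, hk1]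
  congr 1
  ring

theorem pow_eq_one_of_slope_eq_one [FaithfulSMul G α] {e : ZMod p ≃ α} {g : G}
    (hg : IsAffine e g) (hg1 : slope e g = 1) : g ^ p = 1 := by
  obtain ⟨b, hb⟩ := hg.spec
  have key : ∀ (n : ℕ) j, g ^ n • e j = e (j + n * b) := by
    intro n
    induction n with
    | zero => simp
    | succ n ih =>
      intro j
      rw [pow_succ', mul_smul, ih, hb, hg1]
      congr 1
      push_cast
      ring
  apply FaithfulSMul.eq_of_smul_eq_smul (α := α)
  intro x
  obtain ⟨j, rfl⟩ := e.surjective x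
  rw [key]
  simp

theorem mem_zpowers_of_slope_eq_one [FaithfulSMul G α] {e : ZMod p ≃ α} {σ : G}
    (hσ : ∀ j, σ • e j = e (j + 1)) {g : G}
    (hg : IsAffine e g) (hg1 : slope e g = 1) : ∃ n : ℕ, g = σ ^ n := by
  obtain ⟨b, hb⟩ := hg.spec
  refine ⟨b.val, ?_⟩
  apply FaithfulSMul.eq_of_smul_eq_smul (α := α)
  intro x
  obtain ⟨j, rfl⟩ := e.surjective x
  rw [hb, pow_smul_coord hσ, hg1]
  simp

theorem isSolvable_of_affine [FaithfulSMul G α] (e : ZMod p ≃ α) (h : ∀ g : G, IsAffine e g) :
    Group.IsSolvable G := by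
  let f : G →* (ZMod p)ˣ := (slopeHom e h).toHomUnits
  have hker : Group.IsSolvable f.ker := by
    apply Group.isSolvable_of_comm
    intro a b
    apply Subtype.ext
    have ha : slope e (a : G) = 1 := congrArg Units.val (MonoidHom.mem_ker.1 a.2)
    have hb : slope e (b : G) = 1 := congrArg Units.val (MonoidHom.mem_ker.1 b.2)
    exact commute_of_slope_eq_one (h _) (h _) ha hb
  exact Group.isSolvable_of_ker_le_range f.ker.subtype f (by simp)

theorem orderOf_eq_of_coord [FaithfulSMul G α] {e : ZMod p ≃ α} {σ : G}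
    (hσ : ∀ j, σ • e j = e (j + 1)) : orderOf σ = p := by
  apply orderOf_eq_prime
  · apply FaithfulSMul.eq_of_smul_eq_smul (α := α)
    intro x
    obtain ⟨j, rfl⟩ := e.surjective x
    rw [pow_smul_coord hσ]
    simp
  · intro h
    have := hσ 0
    rw [h, one_smul] at this
    simpa using e.injective this

/-- The order of an affine group containing the translations is `p * m` with `m ∣ p - 1`. -/
theorem card_of_affine [Finite G] [FaithfulSMul G α] (e : ZMod p ≃ α) (h : ∀ g : G, IsAffine e g)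
    {σ : G} (hσ : ∀ j, σ • e j = e (j + 1)) : ∃ m, m ∣ p - 1 ∧ Nat.card G = p * m := by
  let f : G →* (ZMod p)ˣ := (slopeHom e h).toHomUnits
  have hker : f.ker = Subgroup.zpowers σ := by
    apply le_antisymm
    · intro g hg
      have ha : slope e g = 1 := congrArg Units.val (MonoidHom.mem_ker.1 hg)
      obtain ⟨n, rfl⟩ := mem_zpowers_of_slope_eq_one hσ (h g) ha
      exact Subgroup.pow_mem _ (Subgroup.mem_zpowers σ) n
    · rw [Subgroup.zpowers_le, MonoidHom.mem_ker]
      apply Units.ext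
      exact slope_eq (b := 1) (by simpa using hσ)
  refine ⟨Nat.card f.range, ?_, ?_⟩
  · have := Subgroup.card_subgroup_dvd_card f.range
    rwa [Nat.card_eq_fintype_card (α := (ZMod p)ˣ), ZMod.card_units] at this
  · rw [← f.ker.card_mul_index, Subgroup.index_ker, hker, Nat.card_zpowers, orderOf_eq_of_coord hσ]

/-- An involution acting as an affine map is a reflection (for odd `p`). -/
theorem reflection_of_involution [FaithfulSMul G α] {e : ZMod p ≃ α} {t : G} (hp2 : p ≠ 2)
    (ht : IsAffine e t) (ho : orderOf t = 2) : ∃ c : ZMod p, ∀ j, t • e j = e (c - j) := by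
  obtain ⟨b, hb⟩ := ht.spec
  have h2 : t * t = 1 := by rw [← sq, ← ho, pow_orderOf_eq_one]
  have h3 : slope e t * slope e t = 1 := by
    have h4 : slope e (t * t) = slope e t * slope e t := by
      apply slope_eq (b := slope e t * b + b)
      intro j
      rw [mul_smul, hb, hb]
      congr 1
      ring
    rw [← h4, h2]
    exact slope_eq (b := 0) (by simp)
  rcases mul_self_eq_one_iff.1 h3 with h5 | h5
  · exfalso
    have h6 := orderOf_dvd_of_pow_eq_one (pow_eq_one_of_slope_eq_one ht h5)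
    rw [ho] at h6
    exact hp2 ((Nat.prime_dvd_prime_iff_eq Nat.prime_two hp.out).1 h6).symm
  · refine ⟨b, fun j => ?_⟩
    rw [hb, h5]
    congr 1
    ring

end Affine

section Sylow

variable {G : Type*} [Group G] [Finite G] {p : ℕ} [hp : Fact p.Prime] {α : Type*} [Finite α]
  [MulAction G α] [FaithfulSMul G α]

omit [Finite G] hp in
theorem card_dvd_factorial : Nat.card G ∣ (Nat.card α).factorial := by
  rw [← Nat.card_perm]
  exact Subgroup.card_dvd_of_injective (toPermHom G α) toPerm_injective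

omit [Finite G] in
theorem not_sq_dvd_card (hα : Nat.card α = p) : ¬ p ^ 2 ∣ Nat.card G := by
  intro h
  have h1 := h.trans (card_dvd_factorial (G := G) (α := α))
  obtain ⟨n, hn⟩ : ∃ n, p = n + 1 := ⟨p - 1, (Nat.succ_pred_eq_of_pos hp.out.pos).symm⟩
  rw [hα, sq] at h1
  nth_rewrite 3 [hn] at h1
  rw [Nat.factorial_succ, ← hn] at h1
  have h2 := Nat.dvd_of_mul_dvd_mul_left hp.out.pos h1
  rw [hp.out.dvd_factorial] at h2
  omega

theorem card_sylow (hα : Nat.card α = p) (hd : p ∣ Nat.card G) (P : Sylow p G) :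
    Nat.card P = p := by
  obtain ⟨n, hn⟩ := P.isPGroup'.exists_card_eq
  have h1 : p ∣ Nat.card P := P.dvd_card_of_dvd_card hd
  have h2 : ¬ p ^ 2 ∣ Nat.card P := fun h =>
    not_sq_dvd_card hα (h.trans (Subgroup.card_subgroup_dvd_card (P : Subgroup G)))
  have hn' : Nat.card P = p ^ n := hn
  rw [hn'] at h1 h2 ⊢
  rcases n with _ | _ | n
  · simp at h1; exact absurd h1 hp.out.one_lt.ne'
  · simp
  · exact absurd (pow_dvd_pow p (by omega)) h2

/-- A Sylow `p`-subgroup of a group of degree `p` and order divisible by `p` is generated by a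
`p`-cycle, the translation in suitable coordinates. -/
theorem exists_coord_sylow (hα : Nat.card α = p) (hd : p ∣ Nat.card G) (P : Sylow p G) :
    ∃ (σ : G) (e : ZMod p ≃ α), (P : Subgroup G) = Subgroup.zpowers σ ∧
      ∀ j, σ • e j = e (j + 1) := by
  have hc := card_sylow hα hd P
  obtain ⟨σ, hσ⟩ := exists_prime_orderOf_dvd_card' (G := (P : Subgroup G)) p
    (P.dvd_card_of_dvd_card hd)
  have hσ' : orderOf (σ : G) = p := by rw [Subgroup.orderOf_coe, hσ]
  obtain ⟨a, ha⟩ : ∃ a : α, (σ : G) • a ≠ a := by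
    by_contra hcon
    push Not at hcon
    have h1 : (σ : G) = 1 := FaithfulSMul.eq_of_smul_eq_smul (α := α) fun x => by
      rw [hcon, one_smul]
    rw [h1, orderOf_one] at hσ'
    exact hp.out.one_lt.ne hσ'
  obtain ⟨e, he⟩ := exists_coord hα (orderOf_dvd_iff_pow_eq_one.1 hσ'.dvd) ha
  refine ⟨σ, e, ?_, he⟩
  symm
  apply Subgroup.eq_of_le_of_card_ge (by rw [Subgroup.zpowers_le]; exact σ.2)
  rw [Nat.card_zpowers, hσ']
  exact hc.le

omit [Finite α] [FaithfulSMul G α] in
theorem isAffine_of_mem_normalizer {e : ZMod p ≃ α} {σ : G} (hσ : ∀ j, σ • e j = e (j + 1))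
    {g : G} (hg : g ∈ Subgroup.normalizer ((Subgroup.zpowers σ : Subgroup G) : Set G)) :
    IsAffine e g := by
  have h1 : g * σ * g⁻¹ ∈ Subgroup.zpowers σ :=
    (Subgroup.mem_normalizer_iff.1 hg σ).1 (Subgroup.mem_zpowers σ)
  obtain ⟨m, hm⟩ := (mem_powers_iff_mem_zpowers.2 h1)
  exact isAffine_of_conj hσ hm.symm

/-- The normaliser of a Sylow `p`-subgroup has order `p * m` with `m ∣ p - 1`. -/
theorem card_normalizer_sylow (hα : Nat.card α = p) (hd : p ∣ Nat.card G) (P : Sylow p G) :
    ∃ m, m ∣ p - 1 ∧ Nat.card (Subgroup.normalizer ((P : Subgroup G) : Set G)) = p * m := by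
  obtain ⟨σ, e, hP, he⟩ := exists_coord_sylow hα hd P
  rw [hP]
  refine card_of_affine e (fun g => isAffine_of_mem_normalizer he g.2)
    (σ := ⟨σ, Subgroup.le_normalizer (Subgroup.mem_zpowers σ)⟩) he

/-- Sylow counting: the order is `p * m * n` with `m ∣ p - 1` and `n ≡ 1 (mod p)`. -/
theorem card_eq_mul_mul (hα : Nat.card α = p) (hd : p ∣ Nat.card G) (P : Sylow p G) :
    ∃ m n, m ∣ p - 1 ∧ n ≡ 1 [MOD p] ∧
      Nat.card (Subgroup.normalizer ((P : Subgroup G) : Set G)) = p * m ∧
      Nat.card G = p * m * n := by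
  obtain ⟨m, hm, hc⟩ := card_normalizer_sylow hα hd P
  refine ⟨m, Nat.card (Sylow p G), hm, card_sylow_modEq_one p G, hc, ?_⟩
  rw [P.card_eq_index_normalizer, ← hc]
  exact (Subgroup.card_mul_index _).symm

omit [Finite G] [Finite α] in
/-- A normal subgroup of order prime to `p` of a transitive group of degree `p` is trivial. -/
theorem eq_bot_of_normal [IsPretransitive G α] (hα : Nat.card α = p) (N : Subgroup G) [N.Normal]
    (hN : ¬ p ∣ Nat.card N) : N = ⊥ := by
  have hprim : IsPreprimitive G α := IsPreprimitive.of_prime_card (hα ▸ hp.out)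
  by_contra hne
  have hne' : fixedPoints N α ≠ Set.univ := by
    intro h
    apply hne
    rw [eq_bot_iff]
    intro g hg
    rw [Subgroup.mem_bot]
    apply FaithfulSMul.eq_of_smul_eq_smul (α := α)
    intro x
    have : x ∈ fixedPoints N α := h ▸ Set.mem_univ x
    rw [one_smul]
    exact this ⟨g, hg⟩
  have htr : IsPretransitive N α := IsQuasiPreprimitive.isPretransitive_of_normal hne'
  have : Nonempty α := by
    have : 0 < Nat.card α := hα ▸ hp.out.pos
    exact (Nat.card_pos_iff.1 this).1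
  exact hN (hα ▸ H1.Basic.card_dvd_card_group (G := N) (Ω := α))

/-- If a Sylow `p`-subgroup of a transitive group of degree `p` is self-normalising, it is the
whole group. -/
theorem card_eq_of_card_normalizer [IsPretransitive G α] (hα : Nat.card α = p) (P : Sylow p G)
    (hN : Nat.card (Subgroup.normalizer ((P : Subgroup G) : Set G)) = p) : Nat.card G = p := by
  have : Nonempty α := by
    have : 0 < Nat.card α := hα ▸ hp.out.pos
    exact (Nat.card_pos_iff.1 this).1
  have hd : p ∣ Nat.card G := hα ▸ H1.Basic.card_dvd_card_group (G := G) (Ω := α)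
  have hc := card_sylow hα hd P
  have h1 : (P : Subgroup G) = Subgroup.normalizer ((P : Subgroup G) : Set G) :=
    Subgroup.eq_of_le_of_card_ge Subgroup.le_normalizer (hN.trans hc.symm).le
  have hcyc : IsCyclic (P : Subgroup G) := isCyclic_of_prime_card hc
  have h2 : Subgroup.normalizer ((P : Subgroup G) : Set G) ≤
      Subgroup.centralizer ((P : Subgroup G) : Set G) := by
    rw [← h1]
    intro x hx y hy
    have := (isMulCommutative_iff.1 (inferInstance : IsMulCommutative (P : Subgroup G)))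
      ⟨y, hy⟩ ⟨x, hx⟩
    exact congrArg Subtype.val this
  have h3 := MonoidHom.ker_transferSylow_isComplement' P h2
  have h4 := eq_bot_of_normal hα _ (MonoidHom.not_dvd_card_ker_transferSylow P h2)
  have h5 := h3.card_mul_card
  rw [h4, Subgroup.card_bot, one_mul] at h5
  rw [← h5]
  exact hc

end Sylow

end Cfsg.Agent.H1.Coord
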