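import Mathlib
import Cfsg.Agent.H1.Coord
import Cfsg.Agent.H1.PermModule
import Cfsg.Agent.S0673
import Cfsg.Agent.S0671

/-!
The heart of the permutation module of a transitive group of prime degree, and Burnside's
theorem in the form: such a group is affine or doubly transitive.
-/

set_option autoImplicit false

namespace Cfsg.Agent.H1.Heart

open MulAction Cfsg Polynomial H1.Coord H1.PermModule

variable {G : Type*} [Group G] {p : ℕ} [hp : Fact p.Prime] {α : Type*} [MulAction G α]
  {K : Type*} [Field K] [CharP K p]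

theorem classify {e : ZMod p ≃ α} {σ : G} (hσ : ∀ j, σ • e j = e (j + 1))
    (W : Submodule K (α → K)) (hW : ∀ v ∈ W, permRep K G α σ v ∈ W) :
    ∃ r : ℕ, r ≤ p ∧ Module.finrank K W = r ∧ ∀ v : α → K, v ∈ W ↔
      ∃ P : K[X], P.degree < r ∧ ∀ j : ZMod p, v (e j) = P.eval (ZMod.cast j : K) := by
  let L : (α → K) ≃ₗ[K] (ZMod p → K) := LinearEquiv.funCongrLeft K K e
  obtain ⟨r, hr, hfin, hmem⟩ := S0673.result (W.map L.toLinearMap) (by
    rintro _ ⟨v, hv, rfl⟩
    refine ⟨_, hW v hv, ?_⟩
    funext j
    change v (σ⁻¹ • e j) = v (e (j - 1))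
    rw [inv_smul_coord hσ])
  refine ⟨r, hr, ?_, fun v => ?_⟩
  · rw [← hfin, LinearEquiv.finrank_map_eq]
  · have := hmem (L v)
    rw [Submodule.mem_map_equiv, LinearEquiv.symm_apply_apply] at this
    exact this

theorem affine_of_small {e : ZMod p ≃ α} (W : Submodule K (α → K))
    (hW : ∀ g : G, ∀ v ∈ W, permRep K G α g v ∈ W) {r : ℕ} (hr : 2 ≤ r) (hrp : 2 * r ≤ p + 1)
    (hmem : ∀ v : α → K, v ∈ W ↔
      ∃ P : K[X], P.degree < r ∧ ∀ j : ZMod p, v (e j) = P.eval (ZMod.cast j : K)) (g : G) :
    IsAffine e g := by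
  let x : α → K := fun a => (ZMod.cast (e.symm a) : K)
  have hx : ∀ i, i < r → x ^ i ∈ W := by
    intro i hi
    rw [hmem]
    refine ⟨X ^ i, ?_, fun j => by simp [x]⟩
    rw [degree_X_pow]
    exact_mod_cast hi
  have hgx : ∀ i, i < r → ∃ P : K[X], P.degree < r ∧
      ∀ j : ZMod p, (ZMod.cast (e.symm (g • e j)) : K) ^ i = P.eval (ZMod.cast j : K) := by
    intro i hi
    obtain ⟨P, hP, h⟩ := (hmem _).1 (hW g⁻¹ _ (hx i hi))
    refine ⟨P, hP, fun j => ?_⟩
    rw [← h j]
    simp [x]
  obtain ⟨P, hP, hPx⟩ := hgx 1 (by omega)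
  simp only [pow_one] at hPx
  have hdeg : P.natDegree ≤ 1 := by
    by_contra hcon
    push Not at hcon
    have hP0 : P ≠ 0 := by rintro rfl; simp at hcon
    have hd : P.natDegree < r := (natDegree_lt_iff_degree_lt hP0).2 hP
    obtain ⟨i, hi1, hi2, hi3⟩ : ∃ i, i < r ∧ r ≤ i * P.natDegree ∧ i * P.natDegree < p := by
      refine ⟨(r - 1) / P.natDegree + 1, ?_, ?_, ?_⟩
      · have : (r - 1) / P.natDegree ≤ (r - 1) / 2 := Nat.div_le_div_left hcon (by norm_num)
        omega
      · have := Nat.lt_div_mul_add (a := r - 1) (b := P.natDegree) (by omega)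
        rw [add_mul, one_mul]
        omega
      · have := Nat.div_mul_le_self (r - 1) P.natDegree
        rw [add_mul, one_mul]
        omega
    obtain ⟨Q, hQ, hQx⟩ := hgx i hi1
    have hPi : (P ^ i).natDegree = i * P.natDegree := natDegree_pow P i
    have heq : P ^ i = Q := by
      apply S0673.eq_of_ev_eq (p := p)
      · rw [degree_eq_natDegree (pow_ne_zero i hP0), hPi]
        exact_mod_cast hi3
      · exact hQ.trans_le (by exact_mod_cast (by omega))
      · funext j
        rw [S0673.ev_apply, S0673.ev_apply, eval_pow, ← hPx, hQx]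
    rw [← heq, degree_eq_natDegree (pow_ne_zero i hP0), hPi] at hQ
    have : i * P.natDegree < r := by exact_mod_cast hQ
    omega
  have hlin : ∀ j : ZMod p, (ZMod.cast (e.symm (g • e j)) : K) =
      P.coeff 1 * (ZMod.cast j : K) + P.coeff 0 := by
    intro j
    rw [hPx]
    conv_lhs => rw [eq_X_add_C_of_natDegree_le_one hdeg]
    simp
  apply isAffine_of_step (e.symm (g • e 1) - e.symm (g • e 0))
  intro j
  apply S0673.cast_injective (p := p) (K := K)
  simp only [ZMod.cast_add (dvd_refl p), ZMod.cast_sub (dvd_refl p), hlin,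
    ZMod.cast_one (dvd_refl p), ZMod.cast_zero]
  ring

/-- The orthogonal complement of a subspace of functions. -/
theorem exists_perp [Fintype α] (W : Submodule K (α → K))
    (hW : ∀ g : G, ∀ v ∈ W, permRep K G α g v ∈ W) :
    ∃ W' : Submodule K (α → K), (∀ g : G, ∀ v ∈ W', permRep K G α g v ∈ W') ∧
      Module.finrank K W' = Fintype.card α - Module.finrank K W := by
  classical
  let B : LinearMap.BilinForm K (α → K) := dotProductBilin K K
  have hB : B.Nondegenerate := by
    constructor
    · intro u hu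
      funext x
      simpa [B] using hu (Pi.single x 1)
    · intro u hu
      funext x
      simpa [B] using hu (Pi.single x 1)
  refine ⟨B.orthogonal W, ?_, ?_⟩
  · intro g v hv
    rw [LinearMap.BilinForm.mem_orthogonal_iff] at hv ⊢
    intro w hw
    rw [← hv _ (hW g⁻¹ w hw)]
    simp only [B, dotProductBilin_apply_apply, dotProduct]
    refine Fintype.sum_equiv (MulAction.toPerm g⁻¹) _ _ fun x => ?_
    simp
  · rw [LinearMap.BilinForm.finrank_orthogonal hB]
    simp

/-- An invariant subspace between the constants and the sum-zero functions is one of the two,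
unless the group is affine. -/
theorem affine_or_heart [Fintype α] {e : ZMod p ≃ α} {σ : G} (hσ : ∀ j, σ • e j = e (j + 1))
    (W : Submodule K (α → K)) (hW : ∀ g : G, ∀ v ∈ W, permRep K G α g v ∈ W)
    (h₁ : (permConstants K G α).toSubmodule ≤ W) (h₂ : W ≤ (permSumZero K G α).toSubmodule) :
    (∀ g : G, IsAffine e g) ∨ W = (permConstants K G α).toSubmodule ∨
      W = (permSumZero K G α).toSubmodule := by
  classical
  have hcard : Fintype.card α = p := by rw [← Fintype.card_congr e, ZMod.card]
  obtain ⟨r, hr, hfin, hmem⟩ := classify hσ W (hW σ)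
  have hS : Module.finrank K (permSumZero K G α).toSubmodule < p := by
    have hne : (permSumZero K G α).toSubmodule ≠ ⊤ := by
      intro h
      have : (Pi.single (e 0) 1 : α → K) ∈ (permSumZero K G α).toSubmodule :=
        h ▸ Submodule.mem_top
      rw [mem_permSumZero] at this
      simp at this
    have := Submodule.finrank_lt hne
    simpa [hcard] using this
  have hrp : r < p := by
    have := Submodule.finrank_mono h₂
    omega
  by_cases hr1 : r ≤ 1
  · right; left
    refine le_antisymm (fun v hv => ?_) h₁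
    obtain ⟨P, hP, hv'⟩ := (hmem v).1 hv
    rw [mem_permConstants]
    refine ⟨P.coeff 0, fun x => ?_⟩
    obtain ⟨j, rfl⟩ := e.surjective x
    have hP' : P.degree ≤ 0 := by
      have : P.degree < (1 : ℕ) := hP.trans_le (by exact_mod_cast hr1)
      exact Order.le_of_lt_succ this
    rw [hv', eq_C_of_degree_le_zero hP']
    simp
  by_cases hr2 : r + 1 = p
  · right; right
    exact Submodule.eq_of_le_of_finrank_le h₂ (by omega)
  left
  by_cases hr3 : 2 * r ≤ p + 1
  · exact affine_of_small W hW (by omega) hr3 hmem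
  · obtain ⟨W', hW', hfin'⟩ := exists_perp W hW
    obtain ⟨r', hr', hfin'', hmem'⟩ := classify hσ W' (hW' σ)
    exact affine_of_small W' hW' (r := r') (by omega) (by omega) hmem'

theorem step_zmod_two : ∀ φ : ZMod 2 → ZMod 2, Function.Injective φ →
    ∀ j, φ (j + 1) = φ j + 1 := by
  decide

theorem isAffine_of_two (h2 : p = 2) (e : ZMod p ≃ α) (g : G) : IsAffine e g := by
  subst h2
  apply isAffine_of_step 1
  apply step_zmod_two (fun j => e.symm (g • e j))
  intro i j h
  simpa using h

theorem sum_zmod_eq_zero (h2 : p ≠ 2) : ∑ j : ZMod p, j = 0 := by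
  have h3 : 2 < p := lt_of_le_of_ne hp.out.two_le (Ne.symm h2)
  have := FiniteField.sum_pow_lt_card_sub_one (ZMod p) 1 (by rw [ZMod.card]; omega)
  simpa using this

/-- Burnside's theorem: a group of prime degree containing a `p`-cycle is affine or doubly
transitive. -/
theorem affine_or_two_transitive [Finite G] {e : ZMod p ≃ α} {σ : G}
    (hσ : ∀ j, σ • e j = e (j + 1)) :
    (∀ g : G, IsAffine e g) ∨ IsMultiplyPretransitive G α 2 := by
  classical
  by_cases h2 : p = 2
  · exact Or.inl (isAffine_of_two h2 e)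
  by_cases haff : ∀ g : G, IsAffine e g
  · exact Or.inl haff
  right
  have : Fintype α := Fintype.ofEquiv _ e
  have hcard : Fintype.card α = p ^ 1 := by rw [← Fintype.card_congr e, ZMod.card, pow_one]
  have htr : IsPretransitive G α := by
    constructor
    intro x y
    obtain ⟨i, rfl⟩ := e.surjective x
    obtain ⟨j, rfl⟩ := e.surjective y
    exact ⟨σ ^ (j - i).val, by rw [pow_smul_coord hσ]; simp⟩
  apply S0671.result (K := ZMod p) le_rfl hcard
  intro W W' h1 h3 h4
  by_contra hcon
  push Not at hcon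
  have hW : W.toSubmodule = (permConstants (ZMod p) G α).toSubmodule := by
    rcases affine_or_heart hσ W.toSubmodule (fun g v hv => W.apply_mem_toSubmodule g hv) h1
      (h3.le.trans h4) with h | h | h
    · exact absurd h haff
    · exact h
    · exact absurd (h3.trans_le h4) (h ▸ lt_irrefl _)
  have hW' : W'.toSubmodule = (permSumZero (ZMod p) G α).toSubmodule := by
    rcases affine_or_heart hσ W'.toSubmodule (fun g v hv => W'.apply_mem_toSubmodule g hv)
      (h1.trans h3.le) h4 with h | h | h
    · exact absurd h haff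
    · exact absurd h3 (by rw [hW, h]; exact lt_irrefl _)
    · exact h
  apply haff
  intro g
  have hx : (fun a => e.symm a) ∈ W'.toSubmodule := by
    rw [hW', mem_permSumZero, ← sum_zmod_eq_zero h2]
    exact Fintype.sum_equiv e.symm _ _ fun _ => rfl
  have h5 := hcon g⁻¹ _ hx
  rw [hW, mem_permConstants] at h5
  obtain ⟨c, hc⟩ := h5
  refine ⟨1, c, fun j => ?_⟩
  have h6 := hc (e j)
  simp only [Pi.sub_apply, permRep_apply, inv_inv, Equiv.symm_apply_apply] at h6
  rw [← Equiv.symm_apply_eq, ← h6]
  ring

theorem exists_coord_of_transitive [Finite G] [Finite α] [FaithfulSMul G α] [IsPretransitive G α]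
    (hα : Nat.card α = p) (P : Sylow p G) :
    ∃ (σ : G) (e : ZMod p ≃ α), (P : Subgroup G) = Subgroup.zpowers σ ∧
      ∀ j, σ • e j = e (j + 1) := by
  have : Nonempty α := by
    have : 0 < Nat.card α := hα ▸ hp.out.pos
    exact (Nat.card_pos_iff.1 this).1
  exact exists_coord_sylow hα (hα ▸ H1.Basic.card_dvd_card_group (G := G) (Ω := α)) P

/-- Burnside's theorem on groups of prime degree. -/
theorem solvable_or_two_transitive [Finite G] [Finite α] [FaithfulSMul G α] [IsPretransitive G α]
    (hα : Nat.card α = p) : Group.IsSolvable G ∨ IsMultiplyPretransitive G α 2 := by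
  obtain ⟨P⟩ : Nonempty (Sylow p G) := inferInstance
  obtain ⟨σ, e, -, hσ⟩ := exists_coord_of_transitive hα P
  rcases affine_or_two_transitive hσ with h | h
  · exact Or.inl (isSolvable_of_affine e h)
  · exact Or.inr h

/-- An involution in the normaliser of a Sylow `p`-subgroup is a reflection. -/
theorem exists_reflection [Finite G] [FaithfulSMul G α] {e : ZMod p ≃ α} {σ : G}
    (hσ : ∀ j, σ • e j = e (j + 1)) (h2 : p ≠ 2)
    (heven : Even (Nat.card (Subgroup.normalizer ((Subgroup.zpowers σ : Subgroup G) : Set G)))) :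
    ∃ (t : G) (c : ZMod p), orderOf t = 2 ∧ ∀ j, t • e j = e (c - j) := by
  have : Fact (Nat.Prime 2) := ⟨Nat.prime_two⟩
  obtain ⟨t, ht⟩ := exists_prime_orderOf_dvd_card' 2 heven.two_dvd
  have ht' : orderOf (t : G) = 2 := by rw [Subgroup.orderOf_coe, ht]
  obtain ⟨c, hc⟩ := reflection_of_involution h2 (isAffine_of_mem_normalizer hσ t.2) ht'
  exact ⟨t, c, ht', hc⟩

end Cfsg.Agent.H1.Heart
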