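import Mathlib
import Cfsg.Agent.H1.Heart
import Cfsg.Agent.S0672

/-!
A non-affine group of prime degree containing a reflection is triply transitive.
-/

set_option autoImplicit false

namespace Cfsg.Agent.H1.Three

open MulAction Cfsg H1.Coord H1.PermModule H1.Heart
open scoped Pointwise

variable {G : Type*} [Group G] {p : ℕ} [hp : Fact p.Prime] {α : Type*} [MulAction G α]

theorem three_transitive_of_reflection [Finite G] [FaithfulSMul G α] {e : ZMod p ≃ α} {σ : G}
    (hσ : ∀ j, σ • e j = e (j + 1)) (haff : ¬ ∀ g : G, IsAffine e g) {t : G} {c : ZMod p}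
    (ho : orderOf t = 2) (ht : ∀ j, t • e j = e (c - j)) : IsMultiplyPretransitive G α 3 := by
  classical
  have h2 : p ≠ 2 := fun h => haff (isAffine_of_two h e)
  have : Fintype α := Fintype.ofEquiv _ e
  have hcard : Fintype.card α = p := by rw [← Fintype.card_congr e, ZMod.card]
  have htwo : IsMultiplyPretransitive G α 2 := (affine_or_two_transitive hσ).resolve_left haff
  have htr : IsPretransitive G α := isPretransitive_of_is_two_pretransitive
  refine S0672.result (K := ZMod p) (p := p) htwo (hcard ▸ dvd_rfl) (fun a => ?_) ?_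
  · have h1 : 2 ∣ Nat.card G := ho ▸ orderOf_dvd_natCard t
    rw [← (stabilizer G a).card_mul_index, index_stabilizer_of_transitive,
      Nat.card_eq_fintype_card (α := α), hcard] at h1
    rcases (Nat.Prime.dvd_mul Nat.prime_two).1 h1 with h | h
    · exact even_iff_two_dvd.2 h
    · exact absurd ((Nat.prime_dvd_prime_iff_eq Nat.prime_two hp.out).1 h).symm h2
  intro f hf
  have hconst : ∀ b : ZMod p, (fun _ : α => b) ∈ (permSumZero (ZMod p) G α).toSubmodule := by
    intro b
    rw [mem_permSumZero]
    simp [hcard]
  let W : Submodule (ZMod p) (α → ZMod p) :=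
    (LinearMap.ker f.toLinearMap).map (permSumZero (ZMod p) G α).toSubmodule.subtype
  have hW : ∀ g : G, ∀ v ∈ W, permRep (ZMod p) G α g v ∈ W := by
    rintro g _ ⟨v, hv, rfl⟩
    refine ⟨(permSumZero (ZMod p) G α).toRepresentation g v, ?_, rfl⟩
    have hv' : f v = 0 := hv
    change f _ = 0
    rw [f.isIntertwining, hv', map_zero]
  have h1 : (permConstants (ZMod p) G α).toSubmodule ≤ W := by
    intro v hv
    obtain ⟨b, hb⟩ := (mem_permConstants v).1 hv
    have : v = fun _ => b := funext hb
    subst this
    exact ⟨⟨_, hconst b⟩, hf _ hv, rfl⟩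
  rcases affine_or_heart hσ W hW h1 (Submodule.map_subtype_le _ _) with h | h | h
  · exact absurd h haff
  · exfalso
    have hx : (fun a => e.symm a) ∈ (permSumZero (ZMod p) G α).toSubmodule := by
      rw [mem_permSumZero, ← sum_zmod_eq_zero h2]
      exact Fintype.sum_equiv e.symm _ _ fun _ => rfl
    let x : (permSumZero (ZMod p) G α).toSubmodule := ⟨_, hx⟩
    have hσx : permRep (ZMod p) G _ σ (f x) = f x := by
      rw [← f.isIntertwining, ← sub_eq_zero, ← map_sub]
      apply hf
      rw [mem_permConstants]
      refine ⟨-1, fun a => ?_⟩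
      obtain ⟨j, rfl⟩ := e.surjective a
      change e.symm (σ⁻¹ • e j) - e.symm (e j) = -1
      rw [inv_smul_coord hσ]
      simp
    have htx : permRep (ZMod p) G _ t⁻¹ (f x) = - f x := by
      rw [← f.isIntertwining, ← add_eq_zero_iff_eq_neg, ← map_add]
      apply hf
      rw [mem_permConstants]
      refine ⟨c, fun a => ?_⟩
      obtain ⟨j, rfl⟩ := e.surjective a
      change e.symm (t⁻¹⁻¹ • e j) + e.symm (e j) = c
      rw [inv_inv, ht]
      simp
    have hσn : ∀ (n : ℕ) s, f x (σ ^ n • s) = f x s := by
      intro n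
      induction n with
      | zero => simp
      | succ n ih =>
        intro s
        rw [pow_succ', mul_smul, ← ih s, ← congrFun hσx (σ • σ ^ n • s), permRep_apply,
          inv_smul_smul]
    have hfx : f x = 0 := by
      funext s
      obtain ⟨a, b, hab, hs⟩ := Finset.card_eq_two.1 (Set.powersetCard.card_eq s)
      obtain ⟨i, rfl⟩ := e.surjective a
      obtain ⟨j, rfl⟩ := e.surjective b
      have h3 : t • s = σ ^ (c - i - j).val • s := by
        apply Subtype.ext
        rw [Set.powersetCard.coe_smul, Set.powersetCard.coe_smul, hs]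
        simp only [Finset.smul_finset_insert, Finset.smul_finset_singleton, ht, pow_smul_coord hσ,
          ZMod.natCast_val, ZMod.cast_id', id_eq]
        rw [Finset.pair_comm]
        congr 2
        · ring
        · congr 1
          ring
      have h4 := congrFun htx s
      rw [permRep_apply, inv_inv, h3, hσn, Pi.neg_apply, eq_neg_iff_add_eq_zero, ← two_mul] at h4
      have h5 : (2 : ZMod p) ≠ 0 := by
        intro h
        have : ((2 : ℕ) : ZMod p) = 0 := by exact_mod_cast h
        rw [ZMod.natCast_eq_zero_iff] at this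
        exact h2 ((Nat.prime_dvd_prime_iff_eq hp.out Nat.prime_two).1 this)
      exact (mul_eq_zero.1 h4).resolve_left h5
    have hxW : (fun a => e.symm a) ∈ W := ⟨x, hfx, rfl⟩
    rw [h, mem_permConstants] at hxW
    obtain ⟨b, hb⟩ := hxW
    have h6 := (hb (e 0)).trans (hb (e 1)).symm
    simp at h6
  · ext1
    apply LinearMap.ext
    intro v
    have hv : (v : α → ZMod p) ∈ W := h.ge v.2
    obtain ⟨w, hw, hwv⟩ := hv
    have : w = v := Subtype.ext hwv
    subst this
    exact hw

/-- Neumann's theorem. -/
theorem three_transitive_of_even [Finite G] [Finite α] [FaithfulSMul G α] [IsPretransitive G α]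
    (hα : Nat.card α = p) (hG : ¬ Group.IsSolvable G) (P : Sylow p G)
    (heven : Even (Nat.card (Subgroup.normalizer ((P : Subgroup G) : Set G)))) :
    IsMultiplyPretransitive G α 3 := by
  obtain ⟨σ, e, hP, hσ⟩ := exists_coord_of_transitive hα P
  have haff : ¬ ∀ g : G, IsAffine e g := fun h => hG (isSolvable_of_affine e h)
  have h2 : p ≠ 2 := fun h => haff (isAffine_of_two h e)
  rw [hP] at heven
  obtain ⟨t, c, ho, ht⟩ := exists_reflection hσ h2 heven
  exact three_transitive_of_reflection hσ haff ho ht

end Cfsg.Agent.H1.Three
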