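import Mathlib
import Cfsg.Agent.H1.Three

/-!
Groups of prime degree: even permutations, normal subgroups, Sylow counts.
-/

set_option autoImplicit false

namespace Cfsg.Agent.H1.EvenPrime

open MulAction Cfsg H1.Coord H1.Heart

variable {G : Type*} [Group G] {α : Type*} [MulAction G α]

theorem descFactorial_dvd_card [Finite α] {k : ℕ} (h : IsMultiplyPretransitive G α k)
    (hk : k ≤ Nat.card α) : (Nat.card α).descFactorial k ∣ Nat.card G := by
  classical
  have : Fintype α := Fintype.ofFinite α
  have h1 : Nat.card (Fin k ↪ α) = (Nat.card α).descFactorial k := by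
    rw [Nat.card_eq_fintype_card, Fintype.card_embedding_eq, Fintype.card_fin,
      Nat.card_eq_fintype_card]
  have : Nonempty (Fin k ↪ α) := by
    have : 0 < Nat.card (Fin k ↪ α) := h1 ▸ Nat.descFactorial_pos.2 hk
    exact (Nat.card_pos_iff.1 this).1
  rw [← h1]
  exact H1.Basic.card_dvd_card_group

variable {p : ℕ} [hp : Fact p.Prime]

theorem sign_reflection [Fintype α] [DecidableEq α] {e : ZMod p ≃ α} (h4 : p % 4 = 3) {t : G}
    {c : ZMod p} (ht : ∀ j, t • e j = e (c - j)) :
    Equiv.Perm.sign (toPerm t : Equiv.Perm α) = -1 := by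
  have hcard : Fintype.card α = p := by rw [← Fintype.card_congr e, ZMod.card]
  have h2 : (2 : ZMod p) ≠ 0 := by
    intro h
    have : ((2 : ℕ) : ZMod p) = 0 := by exact_mod_cast h
    rw [ZMod.natCast_eq_zero_iff] at this
    have := Nat.le_of_dvd (by norm_num) this
    omega
  have hsq : (toPerm t : Equiv.Perm α) ^ 2 = 1 := by
    ext x
    obtain ⟨j, rfl⟩ := e.surjective x
    simp [sq, ht]
  have hfix : Fintype.card (Function.fixedPoints (toPerm t : Equiv.Perm α)) = 1 := by
    rw [Fintype.card_eq_one_iff]
    refine ⟨⟨e (c / 2), ?_⟩, ?_⟩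
    · change t • e _ = e _
      rw [ht]
      congr 1
      field_simp
      ring
    · rintro ⟨x, hx⟩
      obtain ⟨j, rfl⟩ := e.surjective x
      apply Subtype.ext
      have hx' : t • e j = e j := hx
      rw [ht] at hx'
      have := e.injective hx'
      change e j = e (c / 2)
      congr 1
      field_simp
      linear_combination -this
  rw [Equiv.Perm.sign_of_pow_two_eq_one hsq, hfix, hcard]
  apply Odd.neg_one_pow
  rw [Nat.odd_iff]
  omega

theorem odd_card_normalizer [Finite G] [FaithfulSMul G α] [Fintype α] [DecidableEq α]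
    [IsPretransitive G α] (hα : Nat.card α = p) (h4 : p % 4 = 3)
    (hsign : ∀ g : G, Equiv.Perm.sign (toPerm g : Equiv.Perm α) = 1) (P : Sylow p G) :
    Odd (Nat.card (Subgroup.normalizer ((P : Subgroup G) : Set G))) := by
  rw [← Nat.not_even_iff_odd]
  intro heven
  obtain ⟨σ, e, hP, hσ⟩ := exists_coord_of_transitive hα P
  rw [hP] at heven
  obtain ⟨t, c, -, ht⟩ := exists_reflection hσ (by omega) heven
  have := sign_reflection h4 ht
  rw [hsign] at this
  exact absurd this (by decide)

omit hp in
theorem sylow_le_normal [Fact p.Prime] [Finite G] (N : Subgroup G) [N.Normal]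
    (hN : ¬ p ∣ N.index) (P : Sylow p G) : (P : Subgroup G) ≤ N := by
  intro x hx
  rw [← QuotientGroup.eq_one_iff, ← orderOf_eq_one_iff]
  obtain ⟨k, hk⟩ := (IsPGroup.iff_orderOf.1 P.isPGroup') ⟨x, hx⟩
  have h1 : orderOf (x : G ⧸ N) ∣ p ^ k := by
    rw [← hk, ← Subgroup.orderOf_coe]
    exact orderOf_map_dvd (QuotientGroup.mk' N) x
  have h2 : orderOf (x : G ⧸ N) ∣ N.index := orderOf_dvd_natCard _
  exact Nat.eq_one_of_dvd_coprimes
    (Nat.Coprime.pow_left k ((Nat.Prime.coprime_iff_not_dvd Fact.out).2 hN)) h1 h2

omit hp in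
theorem card_sylow_le_of_normal [Fact p.Prime] [Finite G] (N : Subgroup G) [N.Normal]
    (hN : ¬ p ∣ N.index) : Nat.card (Sylow p G) ≤ Nat.card (Sylow p N) :=
  Nat.card_le_card_of_injective (fun P => P.subtype (sylow_le_normal N hN P))
    fun _ _ h => Sylow.subtype_injective h

/-- A non-trivial normal subgroup of a transitive group of prime degree. -/
theorem normal_facts [Finite G] [Finite α] [FaithfulSMul G α] [IsPretransitive G α]
    (hα : Nat.card α = p) (N : Subgroup G) [N.Normal] (hN : N ≠ ⊥) :
    IsPretransitive N α ∧ p ∣ Nat.card N ∧ Nat.card (Sylow p G) ≤ Nat.card (Sylow p N) := by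
  have h1 : p ∣ Nat.card N := by
    by_contra h
    exact hN (eq_bot_of_normal hα N h)
  have h2 : ¬ p ∣ N.index := by
    intro h
    apply not_sq_dvd_card (G := G) hα
    rw [← N.card_mul_index, sq]
    exact Nat.mul_dvd_mul h1 h
  refine ⟨H1.Basic.isPretransitive_of_coprime_index N ?_, h1, card_sylow_le_of_normal N h2⟩
  rw [hα]
  exact (Nat.Prime.coprime_iff_not_dvd hp.out).2 h2

theorem card_eq_mul_card_sylow [Finite G] (P : Sylow p G) :
    Nat.card G = Nat.card (Subgroup.normalizer ((P : Subgroup G) : Set G)) *
      Nat.card (Sylow p G) := by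
  rw [P.card_eq_index_normalizer]
  exact (Subgroup.card_mul_index _).symm

section Sign

variable [Fintype α] [DecidableEq α]

variable (G α) in
/-- The subgroup of the elements acting as even permutations. -/
def evenPart : Subgroup G := (Equiv.Perm.sign.comp (toPermHom G α)).ker

theorem mem_evenPart {g : G} :
    g ∈ evenPart G α ↔ Equiv.Perm.sign (toPerm g : Equiv.Perm α) = 1 := Iff.rfl

theorem evenPart_normal : (evenPart G α).Normal := MonoidHom.normal_ker _

theorem index_evenPart : (evenPart G α).index = 1 ∨ (evenPart G α).index = 2 := by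
  rw [← Nat.dvd_prime Nat.prime_two, evenPart, Subgroup.index_ker]
  have := Subgroup.card_subgroup_dvd_card (Equiv.Perm.sign.comp (toPermHom G α)).range
  rwa [Nat.card_eq_fintype_card (α := ℤˣ), Fintype.card_units_int] at this

theorem not_solvable_evenPart (hG : ¬ Group.IsSolvable G) : ¬ Group.IsSolvable (evenPart G α) := by
  intro h
  exact hG (Group.isSolvable_of_ker_le_range (evenPart G α).subtype
    (Equiv.Perm.sign.comp (toPermHom G α)) (by rw [Subgroup.range_subtype]; exact le_rfl))

theorem isPretransitive_evenPart [IsPretransitive G α] (hodd : Odd (Nat.card α)) :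
    IsPretransitive (evenPart G α) α := by
  apply H1.Basic.isPretransitive_of_coprime_index
  rcases index_evenPart (G := G) (α := α) with h | h <;> rw [h]
  · exact Nat.coprime_one_right _
  · exact Nat.coprime_two_right.2 hodd

/-- The even part embeds into the alternating group. -/
def toAlt : evenPart G α →* alternatingGroup α :=
  ((toPermHom G α).comp (evenPart G α).subtype).codRestrict _ fun g => g.2

theorem toAlt_injective [FaithfulSMul G α] : Function.Injective (toAlt (G := G) (α := α)) := by
  intro g h hgh
  apply Subtype.ext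
  exact toPerm_injective (β := α) (congrArg Subtype.val hgh)

theorem card_evenPart_dvd [FaithfulSMul G α] :
    Nat.card (evenPart G α) ∣ Nat.card (alternatingGroup α) :=
  Subgroup.card_dvd_of_injective _ toAlt_injective

theorem alternatingGroup_le_of_card (G : Subgroup (Equiv.Perm α))
    (h : Nat.card (evenPart G α) = Nat.card (alternatingGroup α)) : alternatingGroup α ≤ G := by
  have hb := (toAlt_injective (G := G) (α := α)).bijective_of_nat_card_le h.ge
  intro g hg
  obtain ⟨k, hk⟩ := hb.2 ⟨g, hg⟩
  have : ((k : G) : Equiv.Perm α) = g := congrArg Subtype.val hk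
  exact this ▸ (k : G).2

end Sign

end Cfsg.Agent.H1.EvenPrime
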