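import Cfsg.Agent.H1.Sp2C

/-!
The exceptional subgroups of the symplectic group of degree four over the field with two elements.
-/

set_option autoImplicit false
set_option linter.unusedSectionVars false

namespace Cfsg.Agent.H1.Sp2

open Module Cfsg.Agent.H7 Cfsg.Agent.H7.Polar Cfsg.Agent.H8 QuadraticMap

theorem nonempty_equiv_of_rel {G H : Type*} [Group G] [Group H] (Γ : Subgroup (G × H))
    (A : Subgroup G) (C : Subgroup H) (h1 : ∀ a ∈ A, ∃ c ∈ C, (a, c) ∈ Γ)
    (h2 : ∀ c ∈ C, ∃ a ∈ A, (a, c) ∈ Γ) (h3 : ∀ g, (g, 1) ∈ Γ → g = 1)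
    (h4 : ∀ c, (1, c) ∈ Γ → c = 1) : Nonempty (A ≃* C) := by
  let Γ' := Γ ⊓ A.prod C
  let f1 : Γ' →* A := ((MonoidHom.fst G H).comp Γ'.subtype).codRestrict A fun x => x.2.2.1
  let f2 : Γ' →* C := ((MonoidHom.snd G H).comp Γ'.subtype).codRestrict C fun x => x.2.2.2
  have b1 : Function.Bijective f1 := by
    refine ⟨(injective_iff_map_eq_one _).2 ?_, fun a => ?_⟩
    · rintro ⟨⟨g, c⟩, hx⟩ h
      obtain rfl : g = 1 := congrArg Subtype.val h
      obtain rfl := h4 c hx.1
      rfl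
    · obtain ⟨c, hc, h⟩ := h1 a a.2
      exact ⟨⟨(a, c), h, a.2, hc⟩, rfl⟩
  have b2 : Function.Bijective f2 := by
    refine ⟨(injective_iff_map_eq_one _).2 ?_, fun c => ?_⟩
    · rintro ⟨⟨g, c⟩, hx⟩ h
      obtain rfl : c = 1 := congrArg Subtype.val h
      obtain rfl := h3 g hx.1
      rfl
    · obtain ⟨a, ha, h⟩ := h2 c c.2
      exact ⟨⟨(a, c), h, ha, c.2⟩, rfl⟩
  exact ⟨(MulEquiv.ofBijective f1 b1).symm.trans (MulEquiv.ofBijective f2 b2)⟩

variable {F : Type*} [Field F] {V : Type*} [AddCommGroup V] [Module F V]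
variable {B : V →ₗ[F] V →ₗ[F] F} {L : Subgroup (V ≃ₗ[F] V)}
variable [Finite F] [FiniteDimensional F V]

theorem mem_span_two (hF : ∀ x : F, x = 0 ∨ x = 1) {u x : V} : x ∈ F ∙ u ↔ x = 0 ∨ x = u := by
  rw [Submodule.mem_span_singleton]
  constructor
  · rintro ⟨t, rfl⟩
    rcases hF t with rfl | rfl <;> simp
  · rintro (rfl | rfl)
    · exact ⟨0, by simp⟩
    · exact ⟨1, by simp⟩

theorem trans_of_bad (h : Ctx B) (hL : L ≤ (sp h).Iso) (hi : Irr L) (hF : ∀ x : F, x = 0 ∨ x = 1)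
    {u u' : V} (hu : S B L u) (hu' : S B L u') (hiu : u' ∉ F ∙ u)
    (hM : M B L u u' 1) {v : V} (hv : v ≠ 0) : ∃ g ∈ L, g u = v := by
  have t2 := h.two
  let O : V → Prop := fun x => ∃ g ∈ L, g u = x
  have hOS : ∀ x, O x → S B L x := by
    rintro _ ⟨g, hg, rfl⟩; exact hu.conj h hL hg
  have hOg : ∀ x, O x → ∀ g ∈ L, O (g x) := by
    rintro _ ⟨g, hg, rfl⟩ g' hg'; exact ⟨g' * g, L.mul_mem hg' hg, rfl⟩
  have hOe : ∀ x, O x → ∀ {a y e}, M B L a y e → O (ee B a y e x) := by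
    intro x hx a y e he
    obtain ⟨g, hg, hg'⟩ := he.2
    rw [← hg']; exact hOg x hx g hg
  have hadd : ∀ a z, S B L a → O z → B z a = 0 → z ∉ F ∙ a → O (z + a) := by
    intro a z ha hz hza hi
    obtain ⟨y, hy, hy'⟩ := exists_B_eq' h hi 1
    obtain ⟨e, he⟩ := ha.2 y hy
    simpa [ee, hza, hy'] using hOe z hz he
  have hP : ∀ x, O x → ∃ w, S B L w ∧ w ∉ F ∙ x ∧ M B L x w 1 := by
    rintro _ ⟨g, hg, rfl⟩
    refine ⟨g u', hu'.conj h hL hg, fun hh => hiu ?_, hM.conj h hL hg⟩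
    rw [mem_span_two hF] at hh ⊢
    simpa using hh
  let W : Submodule F V :=
    { carrier := {x | x = 0 ∨ O x}
      zero_mem' := Or.inl rfl
      smul_mem' := fun t x hx => by
        rcases hF t with rfl | rfl
        · exact Or.inl (by simp)
        · simpa using hx
      add_mem' := by
        rintro x' x (rfl | hx') (rfl | hx)
        · simp
        · simpa using Or.inr hx
        · simpa using Or.inr hx'
        rcases hF (B x' x) with h0 | h1
        · by_cases hxx : x' ∈ F ∙ x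
          · rcases (mem_span_two hF).1 hxx with rfl | rfl
            · simpa using Or.inr hx
            · exact Or.inl (h.add_self _)
          · exact Or.inr (hadd x x' (hOS x hx) hx' h0 hxx)
        obtain ⟨w, hw, hwx, hM, hwx'⟩ : ∃ w, S B L w ∧ w ∉ F ∙ x ∧ M B L x w 1 ∧ B x' w = 0 := by
          obtain ⟨w, hw, hwx, hM⟩ := hP x hx
          exact ⟨w + B x' w • x, (hOS x hx).add_smul h hL hw hM.1 hwx _, fun hh => hwx
            ((Submodule.add_mem_iff_left _ (Submodule.smul_mem _ _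
              (Submodule.mem_span_singleton_self x))).1 hh), hM.add_self h _, by
              simp [h1]; grind⟩
        have h2 := hadd w _ hw (hOe x' hx' hM) (by
          simp [ee, hwx', h.alt, h.symm w x, hM.1]) (fun hh => by
            obtain ⟨t, ht⟩ := Submodule.mem_span_singleton.1 hh
            have := congrArg (fun z => B z x) ht
            simp [ee, hM.1, h1, h.alt] at this)
        refine Or.inr ?_
        convert h2 using 1
        simp only [ee, h1, hwx']
        match_scalars <;> grind }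
  rcases hi W (fun g hg w hw => by
    rcases hw with rfl | hw
    · exact Or.inl (by simp)
    · exact Or.inr (hOg w hw g hg)) with h1 | h1
  · exact absurd ((Submodule.mem_bot F).1 (h1 ▸ (show u ∈ W from Or.inr ⟨1, L.one_mem, rfl⟩))) hu.1
  · exact (show v ∈ W by simp [h1]).resolve_left hv

theorem sp_val (h : Ctx B) (x : V) (c : F) : (sp h).Val x c := trivial

/-- the transvection with centre `x` -/
def T (h : Ctx B) (x : V) : V ≃ₗ[F] V :=
  eichE (P := sp h) (u := x) (w := 0) (c := 1) (sp_val h _ _) (by simp) (sp_val h _ _)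

theorem T_apply (h : Ctx B) (x z : V) : T h x z = z + B z x • x := by
  rw [T, eichE_apply, sp_eich]; simp [ee]

theorem T_mem (h : Ctx B) (x : V) : T h x ∈ (sp h).Iso := eichE_mem_Iso _ _ _

theorem T_mul_T (h : Ctx B) (x : V) : T h x * T h x = 1 := by
  have := h.two
  ext z
  simp only [LinearEquiv.mul_apply, T_apply, map_add, map_smul, LinearMap.add_apply,
    LinearMap.smul_apply, h.alt, LinearEquiv.coe_one, id, smul_eq_mul]
  match_scalars <;> grind

theorem T_mul_apply (h : Ctx B) {u w : V} (hw : B w u = 0) (z : V) :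
    (T h w * T h (u + w)) z = ee B u w 1 z := by
  have := h.two
  simp only [LinearEquiv.mul_apply, T_apply, map_add, map_smul, LinearMap.add_apply,
    LinearMap.smul_apply, h.alt, smul_eq_mul, ee, h.symm w u, hw]
  match_scalars <;> grind

theorem Iso_le_of_T (h : Ctx B) (hF : ∀ x : F, x = 0 ∨ x = 1) {Y : Subgroup (V ≃ₗ[F] V)}
    (hY : ∀ x, T h x ∈ Y) : (sp h).Iso ≤ Y := by
  rw [← E_eq_Iso (P := sp h) fun _ => trivial]
  refine E_le_of_EI fun u w c _ hw _ => M.EI h ?_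
  have h1 : M B Y u w 1 := ⟨hw, _, Y.mul_mem (hY w) (hY (u + w)), T_mul_apply h hw⟩
  rcases hF c with rfl | rfl
  · have h2 : M B Y u 0 1 := ⟨by simp, _, hY u, fun z => by simp [T_apply, ee]⟩
    exact (h1.add h h2).congr (by simp) (by simp [one_add_one_eq_two, h.two])
  · exact h1

theorem exists_symp_basis (h : Ctx B) (hn : finrank F V = 4) : ∃ a b w w' : V, B a b = 1 ∧
    B w a = 0 ∧ B w b = 0 ∧ B w' a = 0 ∧ B w' b = 0 ∧ B w w' = 1 ∧
    ∀ x, x = B x b • a + B x a • b + B x w' • w + B x w • w' := by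
  have t2 := h.two
  have hw : (sp h).Wild 1 := wild_one_of_sp fun _ => trivial
  obtain ⟨a, -, b, -, -, -, hab⟩ := exists_hyp_pair hw (U := ⊥) (by simp; omega)
  have hd := (sp h).finrank_perp ((F ∙ a) ⊔ F ∙ b)
  have hd2 := finrank_span_pair_le (F := F) a b
  obtain ⟨w, hw, hw0⟩ := exists_notMem_of_finrank_lt (U := ⊥)
    (W := (sp h).perp ((F ∙ a) ⊔ F ∙ b)) (by simp; omega)
  rw [perp_sup, perp_span_singleton, perp_span_singleton] at hw
  have hw0' : w ≠ 0 := by simpa using hw0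
  have hwa : B w a = 0 := hw.1
  have hwb : B w b = 0 := hw.2
  rw [sp_B] at hab
  obtain ⟨w', h1, h2, h3⟩ := exists_W_ne h hab hwa hwb hw0'
  refine ⟨a, b, w, w', hab, hwa, hwb, h1, h2, h3, fun x => ?_⟩
  have hli : LinearIndependent F ![a, b, w, w'] := by
    rw [Fintype.linearIndependent_iff]
    intro g hg
    rw [Fin.sum_univ_four] at hg
    have e1 := congrArg (fun z => B z a) hg
    have e2 := congrArg (fun z => B z b) hg
    have e3 := congrArg (fun z => B z w) hg
    have e4 := congrArg (fun z => B z w') hg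
    simp [h.alt, hab, h.symm a b, hwa, hwb, h1, h2, h3, h.symm w a, h.symm w b, h.symm w' a,
      h.symm w' b, h.symm w w'] at e1 e2 e3 e4
    intro i
    fin_cases i <;> simp [*]
  have hsp := hli.span_eq_top_of_card_eq_finrank' (by simp [hn])
  obtain ⟨g, hg⟩ := (Submodule.mem_span_range_iff_exists_fun F).1
    (show x ∈ Submodule.span F (Set.range ![a, b, w, w']) by simp only [hsp, Submodule.mem_top])
  rw [Fin.sum_univ_four] at hg
  rw [← hg]
  simp [h.alt, hab, h.symm a b, hwa, hwb, h1, h2, h3, h.symm w a, h.symm w b, h.symm w' a,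
      h.symm w' b, h.symm w w']

theorem exists_six (h : Ctx B) (hF : ∀ x : F, x = 0 ∨ x = 1) (hn : finrank F V = 4) :
    ∃ (Q : V → F) (p : Fin 6 → V), (∀ x y, Q (x + y) = Q x + Q y + B x y) ∧ p 0 = 0 ∧
      (∀ i, Q (p i) = 0) ∧ (∀ v, Q v = 0 → ∃ i, p i = v) ∧
      (∀ i j, B (p i) (p j) = if i = j ∨ i = 0 ∨ j = 0 then 0 else 1) ∧
      ∀ x, (∀ i, B x (p i) = 0) → x = 0 := by
  have t2 := h.two
  obtain ⟨a, b, w, w', hab, hwa, hwb, h1, h2, h3, hx⟩ := exists_symp_basis h hn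
  have t3 : (1 : F) + 1 = 0 := by grind
  refine ⟨fun x => B x a * B x b + B x w * B x w' + B x w + B x w',
    ![0, a, b, a + b + w, a + b + w', a + b + w + w'], fun x y => ?_, rfl, fun i => ?_,
    fun v hv => ?_, fun i j => ?_, fun x hx0 => ?_⟩
  · have := congrArg (B x) (hx y)
    simp only [map_add, map_smul, smul_eq_mul, LinearMap.add_apply] at this ⊢
    rw [this]; ring
  · fin_cases i <;> simp [h.alt, hab, h.symm a b, hwa, hwb, h1, h2, h3, h.symm w a, h.symm w b,
      h.symm w' a, h.symm w' b, h.symm w w', t3]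
  · have := hx v
    rcases hF (B v a) with e1 | e1 <;> rcases hF (B v b) with e2 | e2 <;>
      rcases hF (B v w) with e3 | e3 <;> rcases hF (B v w') with e4 | e4 <;>
      simp only [e1, e2, e3, e4, zero_smul, one_smul, add_zero, zero_add, mul_zero,
        mul_one, t3, one_ne_zero] at this hv
    · exact ⟨0, this.symm⟩
    · exact ⟨1, this.symm⟩
    · exact ⟨2, this.symm⟩
    · exact ⟨3, this.symm⟩
    · exact ⟨4, this.symm⟩
    · exact ⟨5, this.symm⟩
  · fin_cases i <;> fin_cases j <;> simp [h.alt, hab, h.symm a b, hwa, hwb, h1, h2, h3, h.symm w a,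
      h.symm w b, h.symm w' a, h.symm w' b, h.symm w w', t3]
  · have e1 : B x a = 0 := hx0 1
    have e2 : B x b = 0 := hx0 2
    have e3 : B x (a + b + w) = 0 := hx0 3
    have e4 : B x (a + b + w') = 0 := hx0 4
    simp only [map_add, e1, e2, zero_add] at e3 e4
    rw [hx x, e1, e2, e3, e4]; simp

theorem six_sep : ∀ i j : Fin 6, i ≠ j → ∃ k,
    ((k = i ∨ k = 0 ∨ i = 0) ∧ ¬ (k = j ∨ k = 0 ∨ j = 0)) ∨
      (¬ (k = i ∨ k = 0 ∨ i = 0) ∧ (k = j ∨ k = 0 ∨ j = 0)) := by decide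

theorem six_tri : ∀ i j k : Fin 6, i ≠ j → k ≠ i → k ≠ j →
    (¬ (i = j ∨ i = 0 ∨ j = 0) ∧ ¬ (i = k ∨ i = 0 ∨ k = 0) ∧ ¬ (j = k ∨ j = 0 ∨ k = 0)) ∨
    (¬ (i = j ∨ i = 0 ∨ j = 0) ∧ (i = k ∨ i = 0 ∨ k = 0) ∧ (j = k ∨ j = 0 ∨ k = 0)) ∨
    ((i = j ∨ i = 0 ∨ j = 0) ∧ ¬ (i = k ∨ i = 0 ∨ k = 0) ∧ (j = k ∨ j = 0 ∨ k = 0)) ∨
    ((i = j ∨ i = 0 ∨ j = 0) ∧ (i = k ∨ i = 0 ∨ k = 0) ∧ ¬ (j = k ∨ j = 0 ∨ k = 0)) := by decide

theorem alt_six (h : Ctx B) (hF : ∀ x : F, x = 0 ∨ x = 1) (hn : finrank F V = 4)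
    (hL : L ≤ (sp h).Iso) (hT : ∀ x y, x ≠ 0 → y ≠ 0 → T h x * T h y ∈ L)
    (hT' : ∀ x, x ≠ 0 → T h x ∉ L) : Nonempty (L ≃* alternatingGroup (Fin 6)) := by
  have t2 := h.two
  obtain ⟨Q, p, hQ, hp0, hp, hp', hpB, hsp⟩ := exists_six h hF hn
  have hQ0 : Q 0 = 0 := hp0 ▸ hp 0
  have hinj : ∀ i j, (∀ x, B x (p i) = B x (p j)) → i = j := by
    intro i j hij
    by_contra hne
    obtain ⟨k, hk⟩ := six_sep i j hne
    have h1 := hij (p k)
    rw [hpB, hpB] at h1
    rcases hk with hk | hk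
    · simp only [if_pos hk.1, if_neg hk.2, zero_ne_one] at h1
    · simp only [if_neg hk.1, if_pos hk.2, one_ne_zero] at h1
  let Γ : Subgroup ((V ≃ₗ[F] V) × Equiv.Perm (Fin 6)) :=
    { carrier := {z | ∀ i x, Q (z.1 x) + B (z.1 x) (p (z.2 i)) = Q x + B x (p i)}
      one_mem' := fun i x => rfl
      mul_mem' := fun {a b} ha hb i x => by
        rw [← hb i x, ← ha (b.2 i) (b.1 x)]; rfl
      inv_mem' := fun {a} ha i x => by
        have := ha (a.2⁻¹ i) (a.1⁻¹ x)
        rw [show a.1 (a.1⁻¹ x) = x from a.1.apply_symm_apply x,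
          show a.2 (a.2⁻¹ i) = i from a.2.apply_symm_apply i] at this
        exact this.symm }
  have hsw : ∀ i j, i ≠ j → (T h (p i + p j), Equiv.swap i j) ∈ Γ := by
    intro i j hij k x
    have h1 : ∀ m, Q (T h (p i + p j) x) + B (T h (p i + p j) x) (p m) = Q x + B x (p m) +
        B x (p i + p j) * (B (p i) (p j) + B (p i) (p m) + B (p j) (p m) + 1) := by
      intro m
      rw [T_apply, hQ]
      rcases hF (B x (p i + p j)) with e | e
      · simp [e, hQ0]
      · simp only [e, one_smul, hQ, hp, LinearMap.map_add₂]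
        ring
    change Q (T h (p i + p j) x) + B (T h (p i + p j) x) (p (Equiv.swap i j k)) = _
    rw [h1]
    by_cases hki : k = i
    · subst hki
      simp only [Equiv.swap_apply_left, h.alt, map_add]
      grind
    by_cases hkj : k = j
    · subst hkj
      simp only [Equiv.swap_apply_right, h.alt, map_add, h.symm (p i) (p k)]
      grind
    rw [Equiv.swap_apply_of_ne_of_ne hki hkj]
    have : B (p i) (p j) + B (p i) (p k) + B (p j) (p k) + 1 = 0 := by
      rw [hpB, hpB, hpB]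
      rcases six_tri i j k hij hki hkj with e | e | e | e
      · rw [if_neg e.1, if_neg e.2.1, if_neg e.2.2]; grind
      · rw [if_neg e.1, if_pos e.2.1, if_pos e.2.2]; grind
      · rw [if_pos e.1, if_neg e.2.1, if_pos e.2.2]; grind
      · rw [if_pos e.1, if_pos e.2.1, if_neg e.2.2]; grind
    rw [this]; ring
  have hne : ∀ i j, i ≠ j → p i + p j ≠ 0 := fun i j hij h0 => hij (hinj i j fun x => by
    have := congrArg (B x) h0
    simp only [map_add, map_zero] at this
    grind)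
  have h3 : ∀ g, (g, 1) ∈ Γ → g ∈ (sp h).Iso → g = 1 := by
    intro g hg hgI
    ext x
    have e0 := hg 0 x
    simp only [Equiv.Perm.coe_one, id, hp0, map_zero, add_zero] at e0
    have := hsp (g x - x) fun i => by
      have := hg i x
      simp only [Equiv.Perm.coe_one, id, e0, add_right_inj] at this
      simp [this]
    simpa [sub_eq_zero] using this
  obtain ⟨x0, hx0⟩ : ∃ x0 : V, x0 ≠ 0 := ⟨_, hne 0 1 (by decide)⟩
  have key : ∀ σ : Equiv.Perm (Fin 6), ∃ g ∈ (sp h).Iso, (g, σ) ∈ Γ ∧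
      (Equiv.Perm.sign σ = 1 → g ∈ L) ∧ (Equiv.Perm.sign σ = -1 → T h x0 * g ∈ L) := by
    intro σ
    induction σ using Equiv.Perm.swap_induction_on with
    | one => exact ⟨1, one_mem _, Γ.one_mem, fun _ => L.one_mem, fun h => by simp at h⟩
    | swap_mul f i j hij ih =>
      obtain ⟨g, hgI, hg, h1, h2⟩ := ih
      refine ⟨T h (p i + p j) * g, mul_mem (T_mem h _) hgI, Γ.mul_mem (hsw i j hij) hg,
        fun hs => ?_, fun hs => ?_⟩
      · have := L.mul_mem (hT _ _ (hne i j hij) hx0) (h2 (by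
          simpa [Equiv.Perm.sign_swap hij, neg_eq_iff_eq_neg] using hs))
        rwa [mul_assoc, ← mul_assoc (T h x0), T_mul_T, one_mul] at this
      · rw [← mul_assoc]
        exact L.mul_mem (hT _ _ hx0 (hne i j hij)) (h1 (by
          simpa [Equiv.Perm.sign_swap hij] using hs))
  have hall : (sp h).Iso ≤ Γ.map (MonoidHom.fst _ _) := by
    refine Iso_le_of_T h hF fun x => ?_
    by_cases hx : x = 0
    · have : T h x = 1 := by ext z; simp [T_apply, hx]
      rw [this]; exact one_mem _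
    obtain ⟨i, j, hij⟩ : ∃ i j, p i + p j = x := by
      rcases hF (Q x) with e | e
      · obtain ⟨j, hj⟩ := hp' x e
        exact ⟨0, j, by simp [hp0, hj]⟩
      · obtain ⟨i, hi⟩ : ∃ i, B x (p i) ≠ 0 := by
          by_contra! hh; exact hx (hsp x hh)
        obtain ⟨j, hj⟩ := hp' (x + p i) (by
          rw [hQ, e, hp, (hF _).resolve_left hi]; grind)
        exact ⟨i, j, by rw [hj, add_comm x, ← add_assoc, h.add_self, zero_add]⟩
    refine ⟨_, hsw i j ?_, by simp [hij]⟩
    rintro rfl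
    exact hx (by rw [← hij, h.add_self])
  refine nonempty_equiv_of_rel (Γ ⊓ (sp h).Iso.comap (MonoidHom.fst _ _)) L _ (fun a ha => ?_)
    (fun c hc => ?_) (fun g hg => h3 g hg.1 hg.2) fun c hc => ?_
  · obtain ⟨⟨a', σ⟩, hσ, rfl⟩ := hall (hL ha)
    refine ⟨σ, ?_, hσ, hL ha⟩
    rw [Equiv.Perm.mem_alternatingGroup]
    refine (Int.units_eq_one_or _).resolve_right fun hs => ?_
    obtain ⟨g, hgI, hg, -, h2⟩ := key σ
    have h4 := h3 (g⁻¹ * a') (by simpa using Γ.mul_mem (Γ.inv_mem hg) hσ)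
      (mul_mem (inv_mem hgI) (hL ha))
    obtain rfl : g = a' := inv_mul_eq_one.1 h4
    exact hT' x0 hx0 (by simpa using L.mul_mem (h2 hs) (L.inv_mem ha))
  · obtain ⟨g, hgI, hg, h1, -⟩ := key c
    exact ⟨g, h1 (Equiv.Perm.mem_alternatingGroup.1 hc), hg, hgI⟩
  · ext i
    have := hinj (c i) i fun x => by simpa using hc.1 i x
    simp [this]

end Cfsg.Agent.H1.Sp2
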