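import Cfsg.Agent.H1.Sp2D

/-!
The stabiliser of a spread, and the classification of the irreducible overgroups.
-/

set_option autoImplicit false
set_option linter.unusedSectionVars false

namespace Cfsg.Agent.H1.Sp2

open Module Cfsg.Agent.H7 Cfsg.Agent.H7.Polar Cfsg.Agent.H8 QuadraticMap

variable {F : Type*} [Field F] {V : Type*} [AddCommGroup V] [Module F V]
variable {B : V →ₗ[F] V →ₗ[F] F} {L : Subgroup (V ≃ₗ[F] V)}
variable [Finite F] [FiniteDimensional F V]

theorem card_of_two (hF : ∀ x : F, x = 0 ∨ x = 1) : Nat.card F = 2 := by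
  rw [Nat.card_eq_two_iff]
  refine ⟨0, 1, zero_ne_one, Set.eq_univ_of_forall fun x => ?_⟩
  rcases hF x with rfl | rfl <;> simp

theorem sym_five (h : Ctx B) (hF : ∀ x : F, x = 0 ∨ x = 1) (hn : finrank F V = 4)
    (hL : L ≤ (sp h).Iso) (hS : ∀ v, v ≠ 0 → S B L v) (hN : ∀ v, v ≠ 0 → ¬ M B L v 0 1)
    (htr : ∀ v v', v ≠ 0 → v' ≠ 0 → ∃ g ∈ L, g v = v') (hP : ∀ v, v ≠ 0 → ∃ w, M B L v w 1)
    (hU : ∀ v z z', v ≠ 0 → M B L v z 1 → M B L v z' 1 → z + z' ∈ F ∙ v)
    {u w : V} (hu : u ≠ 0) (hw : w ∉ F ∙ u) (hM : M B L u w 0) :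
    Nonempty (L ≃* Equiv.Perm (Fin 5)) := by
  classical
  have t2 := h.two
  have hself : ∀ v z, M B L v z 1 → M B L v (z + v) 1 := fun v z hz => by
    simpa using hz.add_self h 1
  have hni : ∀ v z, v ≠ 0 → M B L v z 1 → z ∉ F ∙ v := by
    intro v z hv hz hh
    rcases (mem_span_two hF).1 hh with rfl | rfl
    · exact hN v hv hz
    · exact hN z hv ((hself _ _ hz).congr (h.add_self z) rfl)
  have hne : ∀ v z, v ≠ 0 → M B L v z 1 → z ≠ 0 := fun v z hv hz h0 =>
    hni v z hv hz (by simp [h0])
  have hsym : ∀ v z, v ≠ 0 → M B L v z 1 → M B L z v 1 := by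
    intro v z hv hz
    have := M.swap (u := z) (u' := v) (t := 1) (c := 1) h hL (hS z (hne v z hv hz))
      (by rw [h.symm, hz.1]) (notMem_span_symm hv (hni v z hv hz)) (by simpa using hz) 1
    simpa using this
  have hU' : ∀ v z z', v ≠ 0 → M B L v z 1 → M B L v z' 1 → z' = z ∨ z' = z + v := by
    intro v z z' hv hz hz'
    rcases (mem_span_two hF).1 (hU v z z' hv hz hz') with e | e
    · left; rw [← add_zero z', ← h.add_self z, ← add_assoc, add_comm z', e, zero_add]
    · right; rw [← e, ← add_assoc, h.add_self, zero_add]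
  let s : Setoid {v : V // v ≠ 0} :=
    { r := fun x y => y = x ∨ M B L x y 1
      iseqv :=
        { refl := fun x => Or.inl rfl
          symm := by
            rintro x y (rfl | hxy)
            · exact Or.inl rfl
            · exact Or.inr (hsym _ _ x.2 hxy)
          trans := by
            rintro x y z (rfl | hxy) (rfl | hyz)
            · exact Or.inl rfl
            · exact Or.inr hyz
            · exact Or.inr hxy
            · rcases hU' _ _ _ y.2 (hsym _ _ x.2 hxy) hyz with e | e
              · exact Or.inl (Subtype.ext e)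
              · exact Or.inr ((hself _ _ hxy).congr (by rw [e, add_comm]) rfl) } }
  have hs : ∀ x y : {v : V // v ≠ 0}, Quotient.mk s x = Quotient.mk s y ↔ y = x ∨ M B L x y 1 :=
    fun x y => Quotient.eq
  have : Finite V := Module.finite_of_finite F
  have := Fintype.ofFinite V
  have := Fintype.ofFinite (Quotient s)
  have hK : Fintype.card (Quotient s) = 5 := by
    have h1 : Fintype.card {v : V // v ≠ 0} = 15 := by
      rw [Fintype.card_subtype_compl, Fintype.card_subtype_eq, ← Nat.card_eq_fintype_card,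
        Module.natCard_eq_pow_finrank (K := F), hn, card_of_two hF]
      norm_num
    have h2 := Finset.card_eq_sum_card_fiberwise (f := Quotient.mk s) (s := Finset.univ)
      (t := Finset.univ) fun _ _ => by simp
    have h3 : ∀ k : Quotient s, (Finset.univ.filter fun x => Quotient.mk s x = k).card = 3 := by
      intro k
      obtain ⟨x, rfl⟩ := k.exists_rep
      obtain ⟨z, hz⟩ := hP x x.2
      have hz' := hself _ _ hz
      rw [Finset.card_eq_three]
      refine ⟨x, ⟨z, hne _ _ x.2 hz⟩, ⟨z + x, hne _ _ x.2 hz'⟩, fun e => hni _ _ x.2 hz ?_,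
        fun e => hni _ _ x.2 hz' ?_, fun e => x.2 ?_, ?_⟩
      · rw [mem_span_two hF]; exact Or.inr (congrArg Subtype.val e).symm
      · rw [mem_span_two hF]; exact Or.inr (congrArg Subtype.val e).symm
      · simpa using congrArg Subtype.val e
      · ext y
        simp only [Finset.mem_filter, Finset.mem_univ, true_and, Finset.mem_insert,
          Finset.mem_singleton]
        rw [eq_comm, hs]
        constructor
        · rintro (rfl | hy)
          · exact Or.inl rfl
          · rcases hU' _ _ _ x.2 hz hy with e | e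
            · exact Or.inr (Or.inl (Subtype.ext e))
            · exact Or.inr (Or.inr (Subtype.ext e))
        · rintro (rfl | rfl | rfl)
          · exact Or.inl rfl
          · exact Or.inr hz
          · exact Or.inr hz'
    simp only [h3, Finset.card_univ, h1, Finset.sum_const, smul_eq_mul] at h2
    omega
  let act : L → {v : V // v ≠ 0} → {v : V // v ≠ 0} := fun g x => ⟨g.1 x, by simpa using x.2⟩
  let ψ : L →* Function.End (Quotient s) :=
    { toFun := fun g => Quotient.map (act g) (by
        rintro x y (rfl | hxy)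
        · exact Or.inl rfl
        · exact Or.inr (hxy.conj h hL g.2))
      map_one' := by
        funext k
        obtain ⟨x, rfl⟩ := k.exists_rep
        rfl
      map_mul' := fun a b => by
        funext k
        obtain ⟨x, rfl⟩ := k.exists_rep
        rfl }
  let φ := ψ.toHomPerm
  have hφ : ∀ g x, φ g (Quotient.mk s x) = Quotient.mk s (act g x) := fun _ _ => rfl
  have hinj : Function.Injective φ := by
    rw [injective_iff_map_eq_one]
    intro g hg
    have hgI := (mem_sp_Iso h).1 (hL g.2)
    have h1 : ∀ x, x ≠ 0 → g.1 x = x ∨ M B L x (g.1 x) 1 := by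
      intro x hx
      have := hφ g ⟨x, hx⟩
      rw [hg, Equiv.Perm.coe_one, id, hs] at this
      exact this.imp_left fun e => congrArg Subtype.val e
    have h2 : ∀ x, B (g.1 x) x = 0 := by
      intro x
      by_cases hx : x = 0
      · simp [hx]
      rcases h1 x hx with e | e
      · rw [e, h.alt]
      · exact e.1
    have h3 : ∀ x y, B (g.1 x) y = B (g.1 y) x := by
      intro x y
      have := h2 (x + y)
      simp only [map_add, LinearMap.add_apply, h2] at this
      grind
    have h4 : ∀ x, g.1 (g.1 x) = x := by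
      intro x
      rw [← sub_eq_zero]
      refine h.nd _ fun y => ?_
      rw [map_sub, h.symm (g.1 (g.1 x)), h3, hgI, sub_self]
    by_contra hg1
    obtain ⟨u0, hu0⟩ : ∃ u0, g.1 u0 ≠ u0 := by
      by_contra! hh
      exact hg1 (Subtype.ext (LinearEquiv.ext hh))
    have hu00 : u0 ≠ 0 := by rintro rfl; simp at hu0
    have h5 := hself _ _ ((h1 u0 hu00).resolve_left hu0)
    have hd := hne _ _ hu00 h5
    have hA : ∀ y, y ≠ 0 → g.1 y = y → y = g.1 u0 + u0 := by
      intro y hy hgy
      have hx0 : u0 + y ≠ 0 := by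
        intro e
        have : u0 = y := by rw [← add_zero u0, ← h.add_self y, ← add_assoc, e, zero_add]
        exact hu0 (by rw [this, hgy])
      have h6 := hself _ _ ((h1 _ hx0).resolve_left (by simpa [hgy] using hu0))
      have h7 : g.1 (u0 + y) + (u0 + y) = g.1 u0 + u0 := by
        rw [map_add, hgy, show g.1 u0 + y + (u0 + y) = g.1 u0 + u0 + (y + y) by abel, h.add_self,
          add_zero]
      rw [h7] at h6
      rcases hU' _ _ _ hd (hsym _ _ hu00 h5) (hsym _ _ hx0 h6) with e | e
      · exact absurd (by simpa using e) hy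
      · simpa using e
    obtain ⟨x, -, hx⟩ := exists_B_eq h (U := ⊥) (v := g.1 u0 + u0) (by simpa using hd) 1
    have hx0 : x ≠ 0 := by rintro rfl; simp at hx
    by_cases hgx : g.1 x = x
    · rw [← hA x hx0 hgx, h.alt] at hx
      exact zero_ne_one hx
    have h8 := hself _ _ ((h1 x hx0).resolve_left hgx)
    rw [← hA _ (hne _ _ hx0 h8) (by rw [map_add, h4, add_comm]), h8.1] at hx
    exact zero_ne_one hx
  have hsurj : φ.range = ⊤ := by
    obtain ⟨g, hg, hg'⟩ := hM.2
    have hw0 : w ≠ 0 := by rintro rfl; simp at hw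
    have huw0 : u + w ≠ 0 := by
      intro e
      exact hw ((mem_span_two hF).2 (Or.inr (by
        rw [← zero_add w, ← h.add_self u, add_assoc, e, add_zero])))
    have hnM : ¬ M B L u w 1 := fun hh => hN u hu (by simpa using hh.lam h hM)
    have htrans : MulAction.IsPretransitive φ.range (Quotient s) := ⟨fun k k' => by
      obtain ⟨x, rfl⟩ := k.exists_rep
      obtain ⟨y, rfl⟩ := k'.exists_rep
      obtain ⟨a, ha, hxy⟩ := htr x y x.2 y.2
      exact ⟨⟨φ ⟨a, ha⟩, _, rfl⟩, (hφ _ _).trans (congrArg _ (Subtype.ext hxy))⟩⟩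
    refine Equiv.Perm.subgroup_eq_top_of_swap_mem (τ := φ ⟨g, hg⟩) (by rw [hK]; norm_num) ?_
      ⟨_, rfl⟩ ?_
    · rw [← Nat.card_eq_fintype_card, ← Nat.card_eq_fintype_card,
        ← MulAction.index_stabilizer_of_transitive φ.range (Quotient.mk s ⟨u, hu⟩)]
      exact Subgroup.index_dvd_card _
    rw [← Equiv.Perm.card_support_eq_two]
    refine le_antisymm ?_ (Equiv.Perm.two_le_card_support_of_ne_one fun e => ?_)
    · have hsub : (φ ⟨g, hg⟩).support ⊆ ({Quotient.mk s ⟨u, hu⟩, Quotient.mk s ⟨w, hw0⟩,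
          Quotient.mk s ⟨u + w, huw0⟩} : Finset _)ᶜ := by
        intro k hk
        rw [Finset.mem_compl]
        intro hk'
        rw [Equiv.Perm.mem_support] at hk
        apply hk
        have e1 : B u w = 0 := by rw [h.symm, hM.1]
        simp only [Finset.mem_insert, Finset.mem_singleton] at hk'
        rcases hk' with rfl | rfl | rfl <;> rw [hφ] <;> congr 1 <;> apply Subtype.ext <;>
          simp [act, hg', ee, h.alt, hM.1, e1]
      refine (Finset.card_le_card hsub).trans ?_
      rw [Finset.card_compl, hK, Finset.card_eq_three.2 ⟨_, _, _, ?_, ?_, ?_, rfl⟩]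
      · rw [Ne, hs]
        rintro (e | e)
        · exact hw ((mem_span_two hF).2 (Or.inr (congrArg Subtype.val e)))
        · exact hnM e
      · rw [Ne, hs]
        rintro (e | e)
        · exact hw0 (by simpa using congrArg Subtype.val e)
        · exact hnM ((hself _ _ e).congr (by
            change u + w + u = w
            rw [add_comm u, add_assoc, h.add_self, add_zero]) rfl)
      · rw [Ne, hs]
        rintro (e | e)
        · exact hu (by simpa using congrArg Subtype.val e)
        · exact hnM (hsym _ _ hw0 ((hself _ _ e).congr (by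
            change u + w + w = u
            rw [add_assoc, h.add_self, add_zero]) rfl))
    · have h1 : g = 1 := congrArg Subtype.val (hinj (e.trans (map_one φ).symm))
      have := rk_ee h hu hw hg'
      rw [h1, rk, LinearEquiv.coe_toLinearMap_one, sub_self, LinearMap.range_zero,
        finrank_bot] at this
      exact two_ne_zero this.symm
  exact ⟨(MulEquiv.ofBijective φ ⟨hinj, MonoidHom.range_eq_top.1 hsurj⟩).trans
    (Fintype.equivFinOfCardEq hK).permCongrHom⟩

theorem exceptional (h : Ctx B) (hF : ∀ x : F, x = 0 ∨ x = 1) (hn : finrank F V = 4)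
    (hL : L ≤ (sp h).Iso) (hi : Irr L) (hN : ∀ v, S B L v → ¬ ∀ c, M B L v 0 c)
    {u u' : V} (hu : S B L u) (hu' : S B L u') (hiu : u' ∉ F ∙ u) (hM : M B L u u' 1) :
    Nonempty (L ≃* alternatingGroup (Fin 6)) ∨ Nonempty (L ≃* Equiv.Perm (Fin 5)) := by
  have t2 := h.two
  have htr0 := fun v => trans_of_bad h hL hi hF hu hu' hiu hM (v := v)
  have htr : ∀ v v', v ≠ 0 → v' ≠ 0 → ∃ g ∈ L, g v = v' := by
    intro v v' hv hv'
    obtain ⟨g, hg, rfl⟩ := htr0 v hv
    obtain ⟨g', hg', rfl⟩ := htr0 v' hv'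
    exact ⟨g' * g⁻¹, L.mul_mem hg' (L.inv_mem hg), by simp⟩
  have hS : ∀ v, v ≠ 0 → S B L v := fun v hv => by
    obtain ⟨g, hg, rfl⟩ := htr0 v hv
    exact hu.conj h hL hg
  have hN' : ∀ v, v ≠ 0 → ¬ M B L v 0 1 := fun v hv h0 => hN v (hS v hv) fun d => by
    rcases hF d with rfl | rfl
    · exact M.zero h v
    · exact h0
  by_cases hm : ∃ v, v ≠ 0 ∧ ∀ z, B z v = 0 → z ∉ F ∙ v → M B L v z 1
  · left
    obtain ⟨v0, hv0, hm⟩ := hm
    have hm' : ∀ v, v ≠ 0 → ∀ z, B z v = 0 → z ∉ F ∙ v → M B L v z 1 := by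
      intro v hv z hz hz'
      obtain ⟨g, hg, rfl⟩ := htr v0 v hv0 hv
      obtain ⟨z, rfl⟩ := g.surjective z
      refine (hm z (by rwa [(mem_sp_Iso h).1 (hL hg)] at hz) fun hh => hz' ?_).conj h hL hg
      rw [mem_span_two hF] at hh ⊢
      simpa using hh
    have hT : ∀ x y, x ≠ 0 → y ≠ 0 → B x y = 0 → T h x * T h y ∈ L := by
      intro x y hx hy hxy
      by_cases e : x = y
      · rw [e, T_mul_T]; exact L.one_mem
      have h1 : y = x + y + x := by rw [add_comm x y, add_assoc, h.add_self, add_zero]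
      have h2 := hm' (x + y) (fun e' => e (by rw [h1, e', zero_add])) x (by simp [h.alt, hxy])
        (fun hh => by
          rcases (mem_span_two hF).1 hh with e' | e'
          · exact hx e'
          · exact hy (by simpa using e'))
      refine h2.2.mem fun z => ?_
      rw [← T_mul_apply h h2.1, ← h1]
    refine alt_six h hF hn hL (fun x y hx hy => ?_) fun x hx hh =>
      hN' x hx ⟨by simp, _, hh, fun z => by simp [T_apply, ee]⟩
    have hd := (sp h).finrank_perp ((F ∙ x) ⊔ F ∙ y)
    have hd2 := finrank_span_pair_le (F := F) x y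
    obtain ⟨w, hw, hw0⟩ := exists_notMem_of_finrank_lt (U := ⊥)
      (W := (sp h).perp ((F ∙ x) ⊔ F ∙ y)) (by simp; omega)
    rw [perp_sup, perp_span_singleton, perp_span_singleton] at hw
    have hw0' : w ≠ 0 := by simpa using hw0
    have := L.mul_mem (hT x w hx hw0' (by rw [h.symm]; exact hw.1)) (hT w y hw0' hy hw.2)
    rwa [mul_assoc, ← mul_assoc (T h w), T_mul_T, one_mul] at this
  · right
    push Not at hm
    obtain ⟨w, hw, hw', hw''⟩ := hm u hu.1
    obtain ⟨c, hc⟩ := hu.2 w hw
    obtain rfl : c = 0 := (hF c).resolve_right (by rintro rfl; exact hw'' hc)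
    refine sym_five h hF hn hL hS hN' htr (fun v hv => ?_) (fun v z z' hv hz hz' => ?_) hu.1 hw' hc
    · obtain ⟨g, hg, rfl⟩ := htr0 v hv
      exact ⟨_, hM.conj h hL hg⟩
    by_contra hzz
    obtain ⟨y, hy, hy', hy''⟩ := hm v hv
    have hni : ∀ z, M B L v z 1 → z ∉ F ∙ v := by
      intro z hz hh
      rcases (mem_span_two hF).1 hh with rfl | rfl
      · exact hN' v hv hz
      · exact hN' z hv ((hz.add_self h 1).congr (by simp [h.add_self]) rfl)
    have h1 : z' ∉ (F ∙ v) ⊔ F ∙ z := by
      intro hh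
      obtain ⟨x, hx, t, rfl⟩ := mem_sup_span_singleton.1 hh
      rcases hF t with rfl | rfl
      · exact hni _ hz' (by simpa using hx)
      · exact hzz (by rwa [one_smul, add_comm x, ← add_assoc, h.add_self, zero_add])
    have h2 : ((F ∙ v) ⊔ F ∙ z) ⊔ (F ∙ z') = (sp h).perp (F ∙ v) := by
      apply Submodule.eq_of_le_of_finrank_eq
      · rw [perp_span_singleton]
        simp [h.alt, hz.1, hz'.1]
      · have := (sp h).finrank_perp (F ∙ v)
        rw [finrank_span_singleton hv] at this
        rw [finrank_sup_span h1, finrank_sup_span (hni z hz), finrank_span_singleton hv]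
        omega
    have h3 : B z z' = 1 := by
      refine (hF _).resolve_left fun h0 => hni z hz ?_
      rw [← perp_perp (P := sp h) (F ∙ v), ← h2, perp_sup, perp_sup, perp_span_singleton,
        perp_span_singleton, perp_span_singleton]
      simp [h.alt, hz.1, h0]
    have h4 : y ∈ ((F ∙ v) ⊔ F ∙ z) ⊔ (F ∙ z') := by
      rw [h2, perp_span_singleton]; exact hy
    obtain ⟨x, hx, t', rfl⟩ := mem_sup_span_singleton.1 h4
    obtain ⟨x1, hx1, t, rfl⟩ := mem_sup_span_singleton.1 hx
    obtain ⟨s, rfl⟩ := Submodule.mem_span_singleton.1 hx1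
    apply hy''
    rcases hF t with rfl | rfl <;> rcases hF t' with rfl | rfl
    · exact absurd (Submodule.mem_span_singleton.2 ⟨s, by simp⟩) hy'
    · exact (hz'.add_self h s).congr (by module) rfl
    · exact (hz.add_self h s).congr (by module) rfl
    · exact ((hz.add h hz').add_self h s).congr (by module) (by rw [h3]; linear_combination t2)

/-- The classification of the irreducible subgroups containing a supplement. -/
theorem main (h : Ctx B) (hL : L ≤ (sp h).Iso) (hi : Irr L) (hn : 4 ≤ finrank F V) {a : V}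
    (ha : S B L a) : L = (sp h).Iso ∨
      (∃ Q : QuadraticForm F V, (∀ x y, polar Q x y = B x y) ∧ ((∀ g, g ∈ L ↔ ∀ x, Q (g x) = Q x) ∨
        ∀ g, g ∈ L ↔ (∀ x, Q (g x) = Q x) ∧ Even (rk g))) ∨
      (Nat.card F = 2 ∧ finrank F V = 4 ∧
        (Nonempty (L ≃* alternatingGroup (Fin 6)) ∨ Nonempty (L ≃* Equiv.Perm (Fin 5)))) := by
  by_cases hN : ∀ v, S B L v → ¬ ∀ c, M B L v 0 c
  swap
  · push Not at hN
    obtain ⟨v, hv, hf⟩ := hN
    exact Or.inl (le_antisymm hL (Iso_le_of_full h hL hi hv hf))
  right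
  by_cases hG : Good B L
  · left
    obtain ⟨Q, hQ, h1, h2⟩ := generic h hL hi hn hG ha
    refine ⟨Q, hQ, (eq_or_of_sandwich h hQ hn h1 h2).imp (fun e g => ?_) fun e g => ?_⟩
    · rw [e, mem_qP_Iso]
    · rw [e, mem_qP_Iso]
  · right
    simp only [Good, not_forall] at hG
    obtain ⟨u, u', hu, hu', huu, hiu, t, c, hM, hc⟩ := hG
    obtain ⟨hF, -, h1, h2⟩ := good_or_bad h hL hN hu hu' huu hiu hM hc
    exact ⟨card_of_two hF, by omega, exceptional h hF (by omega) hL hi hN hu hu' hiu h1⟩

end Cfsg.Agent.H1.Sp2
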