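import Cfsg.Agent.H1.Sp2E

/-!
The largest normal two-subgroup of a vector stabiliser, and complements to the transvections.
-/

set_option autoImplicit false
set_option linter.unusedSectionVars false

namespace Cfsg.Agent.H1.Sp2

open Module Cfsg.Agent.H7 Cfsg.Agent.H7.Polar Cfsg.Agent.H8 QuadraticMap

variable {F : Type*} [Field F] {V : Type*} [AddCommGroup V] [Module F V]
variable {B : V →ₗ[F] V →ₗ[F] F} {L : Subgroup (V ≃ₗ[F] V)}
variable [Finite F] [FiniteDimensional F V]

theorem T_conj (h : Ctx B) {g : V ≃ₗ[F] V} (hg : g ∈ (sp h).Iso) (w : V) :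
    g * T h w * g⁻¹ = T h (g w) := by
  rw [mul_inv_eq_iff_eq_mul]
  ext x
  simp [T_apply, (mem_sp_Iso h).1 hg]

theorem perp_of_two_elt (h : Ctx B) {w w' : V} {k : ℕ} (hk : (T h w' * T h w) ^ 2 ^ k = 1) :
    B w' w = 0 := by
  by_contra h0
  have t2 := h.two
  set n := T h w' * T h w with hn
  have hY : ∀ m : ℕ, ∀ x ∈ (F ∙ w) ⊔ F ∙ w', (n ^ m) x ∈ (F ∙ w) ⊔ F ∙ w' := by
    intro m
    induction m with
    | zero => simp
    | succ m ih =>
      intro x hx
      rw [pow_succ, LinearEquiv.mul_apply]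
      apply ih
      simp only [hn, LinearEquiv.mul_apply, T_apply]
      exact Submodule.add_mem _ (Submodule.add_mem _ hx (Submodule.smul_mem _ _
        (Submodule.mem_sup_left (Submodule.mem_span_singleton_self _)))) (Submodule.smul_mem _ _
        (Submodule.mem_sup_right (Submodule.mem_span_singleton_self _)))
  have key : ∀ j : ℕ, ∀ x ∈ (F ∙ w) ⊔ F ∙ w', (n ^ 2 ^ j) x = x → x = 0 := by
    intro j
    induction j with
    | zero =>
      intro x hx hnx
      obtain ⟨y, hy, t, rfl⟩ := mem_sup_span_singleton.1 hx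
      obtain ⟨s, rfl⟩ := Submodule.mem_span_singleton.1 hy
      have e1 := congrArg (fun z => B z w) hnx
      have e2 := congrArg (fun z => B z w') hnx
      simp only [pow_zero, pow_one, hn, LinearEquiv.mul_apply, T_apply, map_add, map_smul,
        LinearMap.add_apply, LinearMap.smul_apply, h.alt, h.symm w' w, smul_eq_mul] at e1 e2
      have ht : t = 0 := by
        have : t * B w' w * B w' w = 0 := by linear_combination e2
        simpa [h0] using this
      have hs : s = 0 := by
        have : s * B w' w * B w' w = 0 := by rw [ht] at e1; linear_combination e1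
        simpa [h0] using this
      simp [ht, hs]
    | succ j ih =>
      intro x hx hnx
      rw [pow_succ, pow_mul, pow_two, LinearEquiv.mul_apply] at hnx
      have h1 := ih ((n ^ 2 ^ j) x + x) (Submodule.add_mem _ (hY _ x hx) hx) (by
        rw [map_add, hnx, add_comm])
      refine ih x hx ?_
      rw [← add_zero ((n ^ 2 ^ j) x), ← h.add_self x, ← add_assoc, h1, zero_add]
  have := key k w (Submodule.mem_sup_left (Submodule.mem_span_singleton_self _)) (by simp [hk])
  simp [this] at h0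

/-- A normal two-subgroup of the stabiliser of `a` acts trivially on `a^⊥ / a`. -/
theorem sub_mem_of_normal (h : Ctx B) {a : V} {N : Subgroup (V ≃ₗ[F] V)} (hN : N ≤ (sp h).Iso)
    (hp : ∀ g ∈ N, ∃ k : ℕ, g ^ 2 ^ k = 1)
    (hn : ∀ g ∈ N, ∀ w, B w a = 0 → T h w * g * (T h w)⁻¹ ∈ N) {g : V ≃ₗ[F] V} (hg : g ∈ N)
    {w : V} (hw : B w a = 0) : g w - w ∈ F ∙ a := by
  have t2 := h.two
  have h1 : ∀ g ∈ N, ∀ w, B w a = 0 → T h (g w) * T h w ∈ N := by
    intro g hg w hw
    have := N.mul_mem hg (hn _ (N.inv_mem hg) w hw)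
    rwa [← mul_assoc, ← mul_assoc, T_conj h (hN hg), inv_eq_of_mul_eq_one_right (T_mul_T h w)]
      at this
  have h2 : ∀ g ∈ N, ∀ w, B w a = 0 → B (g w) w = 0 := by
    intro g hg w hw
    obtain ⟨k, hk⟩ := hp _ (h1 g hg w hw)
    exact perp_of_two_elt h hk
  by_contra hcon
  obtain ⟨x, hx, hx'⟩ := exists_B_eq' h hcon 1
  have h3 := h2 _ (h1 g hg w hw) x hx
  simp only [LinearEquiv.mul_apply, T_apply, map_add, map_smul, LinearMap.add_apply,
    LinearMap.smul_apply, h.alt, smul_eq_mul, h.symm (g w) w, h2 g hg w hw, h.symm w x,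
    h.symm (g w) x] at h3
  simp only [map_sub, LinearMap.sub_apply] at hx'
  grind

theorem exists_ee (h : Ctx B) {a b : V} (hba : B b a = 1) {g : V ≃ₗ[F] V} (hg : g ∈ (sp h).Iso)
    (hga : g a = a) (hU : ∀ w, B w a = 0 → g w - w ∈ F ∙ a) :
    ∃ w c, B w a = 0 ∧ B w b = 0 ∧ ∀ x, g x = ee B a w c x := by
  have t2 := h.two
  have hg' := (mem_sp_Iso h).1 hg
  have hab : B a b = 1 := by rw [h.symm, hba]
  obtain ⟨d, hd⟩ : ∃ d, g b = b + d := ⟨g b - b, by simp⟩
  have hda : B d a = 0 := by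
    have := hg' b a
    rw [hga, hd] at this
    simpa using this
  refine ⟨d + B d b • a, B d b, by simp [hda, h.alt], by simp [hab]; grind, fun x => ?_⟩
  have h1 : B (x - B x a • b) a = 0 := by simp [hba]
  obtain ⟨t, ht⟩ := Submodule.mem_span_singleton.1 (hU _ h1)
  have h2 : g x = x + B x a • d + t • a := by
    rw [map_sub, map_smul, hd] at ht
    linear_combination (norm := module) -ht
  have h3 := hg' x b
  rw [h2, hd] at h3
  simp only [map_add, map_smul, LinearMap.add_apply, LinearMap.smul_apply, smul_eq_mul, h.alt, hab,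
    h.symm d a, hda] at h3
  rw [h2, ee]
  simp only [map_add, map_smul, smul_eq_mul]
  match_scalars <;> grind

theorem S_of_card (h : Ctx B) {a : V} (ha : a ≠ 0) {X : Subgroup (V ≃ₗ[F] V)} (hX : X ≤ (sp h).Iso)
    (hXa : ∀ g ∈ X, g a = a) (hU : ∀ g ∈ X, ∀ w, B w a = 0 → g w - w ∈ F ∙ a)
    (hrk : ∀ g ∈ X, rk g ≠ 1) (hc : Nat.card X = Nat.card F ^ (finrank F V - 2)) : S B X a := by
  have t2 := h.two
  obtain ⟨b, -, hab⟩ := exists_B_eq h (U := ⊥) (v := a) (by simpa using ha) 1
  have hba : B b a = 1 := by rw [h.symm, hab]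
  choose w c hwa hwb hw using fun g : X => exists_ee h hba (hX g.2) (hXa g g.2) (hU g g.2)
  let W := (sp h).perp ((F ∙ a) ⊔ F ∙ b)
  have hW : ∀ x, x ∈ W ↔ B x a = 0 ∧ B x b = 0 := fun x => by
    simp only [W, perp_sup, perp_span_singleton, Submodule.mem_inf, mem_pp, sp_B]
  have hM : ∀ g : X, M B X a (w g) (c g) := fun g => ⟨hwa g, g, g.2, hw g⟩
  let f : X → W := fun g => ⟨w g, (hW _).2 ⟨hwa g, hwb g⟩⟩
  have hinj : Function.Injective f := by
    intro g g' hgg
    have e : w g = w g' := congrArg Subtype.val hgg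
    obtain ⟨k, hk, hk'⟩ := ((hM g).lam h (e ▸ hM g')).2
    have e' : c g = c g' := by
      by_contra hne
      exact hrk k hk (rk_tv h ha (fun h0 => hne (by grind)) hk')
    exact Subtype.ext (LinearEquiv.ext fun x => by rw [hw, hw, e, e'])
  have : Finite V := Module.finite_of_finite F
  have hd : finrank F W = finrank F V - 2 := by
    have := (sp h).finrank_perp ((F ∙ a) ⊔ F ∙ b)
    rw [finrank_sup_span (notMem_of_perp hab (h.alt b) (by rintro rfl; simp at hab)),
      finrank_span_singleton ha] at this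
    simp only [W]
    omega
  have hs := (hinj.bijective_of_nat_card_le (by
    rw [hc, Module.natCard_eq_pow_finrank (K := F), hd])).2
  refine ⟨ha, fun x hx => ?_⟩
  obtain ⟨g, hg⟩ := hs ⟨x + B x b • a, (hW _).2 ⟨by simp [hx, h.alt], by simp [hab]; grind⟩⟩
  have e : w g = x + B x b • a := congrArg Subtype.val hg
  refine ⟨c g, ((hM g).add_self h (B x b)).congr ?_ rfl⟩
  rw [e, add_assoc, h.add_self, add_zero]

theorem S.mono {X : Subgroup (V ≃ₗ[F] V)} {a : V} (ha : S B X a) (hX : X ≤ L) : S B L a :=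
  ⟨ha.1, fun w hw => (ha.2 w hw).imp fun _ hc => ⟨hc.1, hc.2.mono hX⟩⟩

theorem rk_toLE {ι : Type} [Fintype ι] [DecidableEq ι] (g : GL ι F) :
    rk (toLE g) = ((g : Matrix ι ι F) - 1).rank := by
  have : Matrix.toLin' (g : Matrix ι ι F) - LinearMap.id = ((g : Matrix ι ι F) - 1).mulVecLin :=
    LinearMap.ext fun x => by simp [Matrix.sub_mulVec]
  rw [rk, Matrix.rank, toLE_coe, this]

end Cfsg.Agent.H1.Sp2
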